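import Mathlib

set_option autoImplicit false

namespace Cfsg.Agent.Lib.Helper10

/-- Summing a function of the coset over the whole group. -/
theorem sum_comp_quotient_mk {G : Type*} [Group G] [Fintype G] (A : Subgroup G) [Fintype (G ⧸ A)]
    {M : Type*} [AddCommMonoid M] (F : G ⧸ A → M) :
    ∑ x : G, F (x : G ⧸ A) = Nat.card A • ∑ q : G ⧸ A, F q := by
  classical
  rw [← Finset.sum_fiberwise (s := Finset.univ) (g := fun x : G => (x : G ⧸ A)), Finset.smul_sum]
  refine Finset.sum_congr rfl fun q _ => ?_
  rw [Finset.sum_congr rfl (g := fun _ => F q) (fun x hx => by rw [(Finset.mem_filter.1 hx).2]),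
    Finset.sum_const]
  congr 1
  have h := QuotientGroup.card_preimage_mk A {q}
  have h1 : Nat.card ({q} : Set (G ⧸ A)) = 1 := by simp
  rw [h1, mul_one] at h
  rw [← h, Nat.card_eq_fintype_card, ← Fintype.card_subtype]
  exact Fintype.card_congr (Equiv.refl _)

end Cfsg.Agent.Lib.Helper10
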