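import Mathlib
import Cfsg.Prelude.Def_Characters
import Cfsg.Agent.CharLib.PermLemma
import Cfsg.Agent.CharLib.L.AbelianIndex
import Cfsg.Agent.H25.CentralDefect3
import Cfsg.Agent.Lib.Helper10.QuotSum

set_option autoImplicit false

namespace Cfsg.Agent.Lib.Helper10

open Cfsg Cfsg.Agent.CharLib Cfsg.Agent.Lib.Helper23 Cfsg.Agent.H25 Cfsg.Agent.Lib.Helper23.MinMax
open scoped ComplexConjugate

universe u

section

variable {G : Type u} [Group G] [Fintype G] (N : Subgroup G)

/-- `g` is special modulo the central subgroup `N` -/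
def SpecialMod (g : G) : Prop := ∀ x : G, x⁻¹ * g⁻¹ * x * g ∈ N → x * g = g * x

variable {N}

theorem specialMod_mul (hN : N ≤ Subgroup.center G) {g n : G} (hn : n ∈ N) (h : SpecialMod N g) :
    SpecialMod N (g * n) := by
  have hc := Subgroup.mem_center_iff.1 (hN hn)
  have hc' := Subgroup.mem_center_iff.1 (hN (N.inv_mem hn))
  intro x hx
  have e : x⁻¹ * (g * n)⁻¹ * x * (g * n) = x⁻¹ * g⁻¹ * x * g := by
    rw [mul_inv_rev, ← mul_assoc x⁻¹, hc' x⁻¹, ← mul_assoc _ g n, hc]
    simp only [mul_assoc]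
    rw [mul_inv_cancel_left]
  rw [e] at hx
  rw [← mul_assoc, h x hx, mul_assoc, mul_assoc, hc x]

theorem specialMod_conj [N.Normal] {g : G} (y : G) (h : SpecialMod N g) :
    SpecialMod N (y * g * y⁻¹) := by
  intro x hx
  have e : (y⁻¹ * x * y)⁻¹ * g⁻¹ * (y⁻¹ * x * y) * g =
      y⁻¹ * (x⁻¹ * (y * g * y⁻¹)⁻¹ * x * (y * g * y⁻¹)) * y⁻¹⁻¹ := by group
  have h1 := h (y⁻¹ * x * y) (by rw [e]; exact Subgroup.Normal.conj_mem inferInstance _ hx _)
  calc x * (y * g * y⁻¹) = y * ((y⁻¹ * x * y) * g) * y⁻¹ := by group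
    _ = y * (g * (y⁻¹ * x * y)) * y⁻¹ := by rw [h1]
    _ = y * g * y⁻¹ * x := by group

variable [Fintype N]

open Classical in
theorem sum_conj_of_isConj (hN : N ≤ Subgroup.center G) (ψ : IrrCharacter N)
    (hfaith : ∀ n : N, (ψ : N → ℂ) n = (ψ : N → ℂ) 1 → n = 1) (g : G) :
    ∑ n : N, conj ((ψ : N → ℂ) n) * (if IsConj ((n : G) * g) g then (1 : ℂ) else 0) =
      if SpecialMod N g then 1 else 0 := by
  have hcomm : ∀ a b : N, a * b = b * a := fun a b =>
    Subtype.ext (Subgroup.mem_center_iff.1 (hN b.2) a)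
  have hψ1 : (ψ : N → ℂ) 1 = 1 := L.irr_apply_one_of_comm hcomm ψ
  have hψm := L.irr_mul_of_apply_one_eq_one ψ hψ1
  by_cases hs : SpecialMod N g
  · rw [if_pos hs, Finset.sum_eq_single 1]
    · rw [hψ1, if_pos (by rw [OneMemClass.coe_one, one_mul]), map_one, one_mul]
    · intro n _ hn
      rw [if_neg, mul_zero]
      intro hc
      apply hn
      obtain ⟨x, hx⟩ := isConj_iff.1 hc.symm
      have h1 : (x⁻¹)⁻¹ * g⁻¹ * x⁻¹ * g = (n : G)⁻¹ := by
        have : (x⁻¹)⁻¹ * g⁻¹ * x⁻¹ = (x * g * x⁻¹)⁻¹ := by group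
        rw [this, hx, mul_inv_rev, mul_assoc, ← Subgroup.mem_center_iff.1 (hN (N.inv_mem n.2)) g,
          inv_mul_cancel_left]
      have h2 := hs x⁻¹ (by rw [h1]; exact N.inv_mem n.2)
      have h3 : x * g * x⁻¹ = g := by
        rw [mul_assoc, ← h2]; group
      rw [h3] at hx
      apply Subtype.ext
      exact mul_right_cancel (hx.symm.trans (one_mul g).symm)
    · intro h; exact absurd (Finset.mem_univ _) h
  · rw [if_neg hs]
    unfold SpecialMod at hs
    push Not at hs
    obtain ⟨x, hx, hne⟩ := hs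
    set n₀ : N := ⟨x⁻¹ * g⁻¹ * x * g, hx⟩ with hn₀
    have hn₀1 : n₀ ≠ 1 := by
      intro h
      apply hne
      have h1 : x⁻¹ * g⁻¹ * x * g = 1 := congrArg Subtype.val h
      have : x * g = g * x * (x⁻¹ * g⁻¹ * x * g) := by group
      rw [this, h1, mul_one]
    have hψn₀ : (ψ : N → ℂ) n₀ ≠ 1 := fun h => hn₀1 (hfaith n₀ (h.trans hψ1.symm))
    -- `n₀⁻¹ g` is conjugate to `g`
    have hconj : ∀ n : N, IsConj (((n₀ * n : N) : G) * g) g ↔ IsConj ((n : G) * g) g := by
      intro n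
      have hcn := Subgroup.mem_center_iff.1 (hN n.2)
      have e : ((n₀ * n : N) : G) * g = x * ((n : G) * g) * x⁻¹ := by
        have h0 : ((n₀ * n : N) : G) = (n : G) * (x⁻¹ * g⁻¹ * x * g) := by
          rw [hcomm]; rfl
        have hz := Subgroup.mem_center_iff.1 (hN hx)
        have h2 : x * g * x⁻¹ = (x⁻¹ * g⁻¹ * x * g) * g := by
          calc x * g * x⁻¹ = g * (x * (x⁻¹ * g⁻¹ * x * g) * x⁻¹) := by group
            _ = g * (x⁻¹ * g⁻¹ * x * g) := by rw [hz x, mul_inv_cancel_right]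
            _ = _ := hz g
        calc ((n₀ * n : N) : G) * g = (n : G) * ((x⁻¹ * g⁻¹ * x * g) * g) := by rw [h0, mul_assoc]
          _ = (n : G) * (x * g * x⁻¹) := by rw [h2]
          _ = (n : G) * x * g * x⁻¹ := by group
          _ = x * ((n : G) * g) * x⁻¹ := by rw [← hcn x]; group
      rw [e]
      have h1 : IsConj ((n : G) * g) (x * ((n : G) * g) * x⁻¹) := isConj_iff.2 ⟨x, rfl⟩
      exact ⟨fun h => h1.trans h, fun h => h1.symm.trans h⟩
    set T := ∑ n : N, conj ((ψ : N → ℂ) n) * (if IsConj ((n : G) * g) g then (1 : ℂ) else 0) with hT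
    have h1 : T = conj ((ψ : N → ℂ) n₀) * T := by
      rw [hT, Finset.mul_sum]
      rw [← Equiv.sum_comp (Equiv.mulLeft n₀)]
      refine Finset.sum_congr rfl fun n _ => ?_
      simp only [Equiv.coe_mulLeft]
      rw [hψm, map_mul, mul_assoc]
      congr 2
      exact if_congr (hconj n) rfl rfl
    have h2 : (1 - conj ((ψ : N → ℂ) n₀)) * T = 0 := by
      rw [sub_mul, one_mul, ← h1, sub_self]
    rcases mul_eq_zero.1 h2 with h3 | h3
    · exfalso
      apply hψn₀
      have h4 : conj ((ψ : N → ℂ) n₀) = 1 := (sub_eq_zero.1 h3).symm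
      have := congrArg conj h4
      simpa using this
    · exact h3

open Classical in
theorem over_iff_centralIrr (hN : N ≤ Subgroup.center G) (ψ : IrrCharacter N) (χ : IrrCharacter G) :
    classInner (fun n : N => (χ : G → ℂ) n) (ψ : N → ℂ) ≠ 0 ↔ centralIrr χ hN = ψ := by
  have h1 : (fun n : N => (χ : G → ℂ) n) = ((χ : G → ℂ) 1) • (centralIrr χ hN : N → ℂ) := by
    funext n
    rw [apply_central χ hN n, Pi.smul_apply, smul_eq_mul, mul_comm]
  rw [h1, classInner_smul_left, classInner_irr (centralIrr χ hN).2 ψ.2]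
  constructor
  · intro h
    by_contra hne
    apply h
    rw [if_neg (fun h' => hne (Subtype.ext h')), mul_zero]
  · intro h
    rw [if_pos (congrArg Subtype.val h), mul_one]
    exact irr_apply_one_ne_zero χ

open Classical in
theorem sum_over_normSq (hN : N ≤ Subgroup.center G) (ψ : IrrCharacter N)
    (hfaith : ∀ n : N, (ψ : N → ℂ) n = (ψ : N → ℂ) 1 → n = 1) (g : G) :
    ∑ χ : IrrCharacter G,
      (if centralIrr χ hN = ψ then (χ : G → ℂ) g * conj ((χ : G → ℂ) g) else 0) =
      (Nat.card N : ℂ)⁻¹ * ((Nat.card (Subgroup.centralizer ({g} : Set G)) : ℂ) *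
        (if SpecialMod N g then 1 else 0)) := by
  have hN0 : (Nat.card N : ℂ) ≠ 0 := by exact_mod_cast Nat.card_pos.ne'
  have h1 : ∀ n : N, ∑ χ : IrrCharacter G, (χ : G → ℂ) ((n : G) * g) * conj ((χ : G → ℂ) g) =
      (Nat.card (Subgroup.centralizer ({g} : Set G)) : ℂ) *
        (if IsConj ((n : G) * g) g then 1 else 0) := by
    intro n
    by_cases hc : IsConj ((n : G) * g) g
    · rw [if_pos hc, mul_one, sum_irr_mul_conj_of_isConj hc, card_centralizer_eq_of_isConj hc]
    · rw [if_neg hc, mul_zero, sum_irr_mul_conj_of_not_isConj hc]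
  have h2 : ∑ n : N, conj ((ψ : N → ℂ) n) *
      ∑ χ : IrrCharacter G, (χ : G → ℂ) ((n : G) * g) * conj ((χ : G → ℂ) g) =
      (Nat.card (Subgroup.centralizer ({g} : Set G)) : ℂ) * (if SpecialMod N g then 1 else 0) := by
    simp only [h1]
    rw [← sum_conj_of_isConj hN ψ hfaith g, Finset.mul_sum]
    refine Finset.sum_congr rfl fun n _ => by ring
  have h3 : ∑ n : N, conj ((ψ : N → ℂ) n) *
      ∑ χ : IrrCharacter G, (χ : G → ℂ) ((n : G) * g) * conj ((χ : G → ℂ) g) =
      (Nat.card N : ℂ) * ∑ χ : IrrCharacter G,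
        (if centralIrr χ hN = ψ then (χ : G → ℂ) g * conj ((χ : G → ℂ) g) else 0) := by
    simp only [Finset.mul_sum]
    rw [Finset.sum_comm]
    refine Finset.sum_congr rfl fun χ _ => ?_
    have h4 : ∀ n : N, conj ((ψ : N → ℂ) n) *
        ((χ : G → ℂ) ((n : G) * g) * conj ((χ : G → ℂ) g)) =
        ((centralIrr χ hN : N → ℂ) n * conj ((ψ : N → ℂ) n)) *
          ((χ : G → ℂ) g * conj ((χ : G → ℂ) g)) := by
      intro n
      rw [irr_central_mul χ.2 (hN n.2) g, centralIrr_apply]; ring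
    simp only [h4]
    rw [← Finset.sum_mul]
    have h5 := classInner_irr (centralIrr χ hN).2 ψ.2
    rw [classInner, inv_mul_eq_iff_eq_mul₀ hN0] at h5
    rw [h5]
    by_cases h6 : centralIrr χ hN = ψ
    · rw [if_pos h6, if_pos (congrArg Subtype.val h6)]; ring
    · rw [if_neg h6, if_neg (fun h' => h6 (Subtype.ext h'))]; ring
  rw [← h2, h3, inv_mul_cancel_left₀ hN0]

open Classical in
theorem card_over_eq_sum (hN : N ≤ Subgroup.center G) (ψ : IrrCharacter N)
    (hfaith : ∀ n : N, (ψ : N → ℂ) n = (ψ : N → ℂ) 1 → n = 1) :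
    (Nat.card {χ : IrrCharacter G // classInner (fun n : N => (χ : G → ℂ) n) (ψ : N → ℂ) ≠ 0} : ℂ) =
      (Nat.card G : ℂ)⁻¹ * ∑ g : G, (Nat.card N : ℂ)⁻¹ *
        ((Nat.card (Subgroup.centralizer ({g} : Set G)) : ℂ) * (if SpecialMod N g then 1 else 0)) := by
  simp only [← sum_over_normSq hN ψ hfaith]
  rw [Finset.sum_comm, Finset.mul_sum, Nat.card_eq_fintype_card, Fintype.card_subtype,
    Finset.card_filter]
  push_cast
  refine Finset.sum_congr rfl fun χ _ => ?_
  by_cases h : centralIrr χ hN = ψ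
  · rw [if_pos ((over_iff_centralIrr hN ψ χ).2 h)]
    simp only [if_pos h]
    exact (classInner_irr_self χ.2).symm
  · rw [if_neg (fun h' => h ((over_iff_centralIrr hN ψ χ).1 h'))]
    simp only [if_neg h]
    simp

omit [Fintype N] in
theorem card_centralizer_of_specialMod [N.Normal] {g : G} (h : SpecialMod N g) :
    Nat.card (Subgroup.centralizer ({g} : Set G)) =
      Nat.card N * Nat.card (Subgroup.centralizer ({(g : G ⧸ N)} : Set (G ⧸ N))) := by
  have h1 : (Subgroup.centralizer ({(g : G ⧸ N)} : Set (G ⧸ N))).comap (QuotientGroup.mk' N) =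
      Subgroup.centralizer ({g} : Set G) := by
    ext x
    rw [Subgroup.mem_comap, Subgroup.mem_centralizer_singleton_iff,
      Subgroup.mem_centralizer_singleton_iff]
    constructor
    · intro hx
      apply h
      have h2 : ((g * x : G) : G ⧸ N) = ((x * g : G) : G ⧸ N) := hx.symm
      have h3 := QuotientGroup.eq.1 h2
      have e : x⁻¹ * g⁻¹ * x * g = (g * x)⁻¹ * (x * g) := by group
      rw [e]; exact h3
    · intro hx
      exact congrArg (QuotientGroup.mk' N) hx
  have h2 := Subgroup.index_comap_of_surjective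
    (Subgroup.centralizer ({(g : G ⧸ N)} : Set (G ⧸ N))) (QuotientGroup.mk'_surjective N)
  rw [h1] at h2
  have h3 := Subgroup.card_mul_index (Subgroup.centralizer ({g} : Set G))
  have h4 := Subgroup.card_mul_index (Subgroup.centralizer ({(g : G ⧸ N)} : Set (G ⧸ N)))
  have h5 := Subgroup.card_eq_card_quotient_mul_card_subgroup N
  have h6 : 0 < (Subgroup.centralizer ({g} : Set G)).index :=
    Nat.pos_of_ne_zero Subgroup.index_ne_zero_of_finite
  apply Nat.eq_of_mul_eq_mul_right h6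
  rw [h3, h5, ← h4, h2]; ring

end

end Cfsg.Agent.Lib.Helper10
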