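import Mathlib
import Cfsg.Prelude.Def_Characters
import Cfsg.Prelude.Def_Blocks
import Cfsg.Agent.CharLib.Eigen

/-! The congruence `χ(g)^(p^n) ≡ χ(g^(p^n)) (mod p)` in the ring of algebraic integers. -/

set_option autoImplicit false

namespace Cfsg.Agent.Lib.Helper10

open Cfsg Cfsg.Agent.CharLib Module

theorem sum_pow_prime_pow_eq {R : Type*} [CommRing R] (p : ℕ) (hp : p.Prime) (n : ℕ) {ι : Type*}
    (s : Finset ι) (u : ι → R) :
    ∃ r : R, (∑ i ∈ s, u i) ^ p ^ n = ∑ i ∈ s, u i ^ p ^ n + p * r := by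
  classical
  induction s using Finset.induction_on with
  | empty =>
    refine ⟨0, ?_⟩
    rw [Finset.sum_empty, Finset.sum_empty, mul_zero, add_zero]
    exact zero_pow (pow_pos hp.pos n).ne'
  | insert a s ha ih =>
    obtain ⟨r, hr⟩ := ih
    obtain ⟨r', hr'⟩ := exists_add_pow_prime_pow_eq hp (u a) (∑ i ∈ s, u i) n
    refine ⟨r + u a * (∑ i ∈ s, u i) * r', ?_⟩
    rw [Finset.sum_insert ha, Finset.sum_insert ha, hr', hr]
    ring

theorem character_pow_congr {G : Type*} [Group G] [Finite G] {χ : G → ℂ} (hχ : IsCharacter G χ)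
    (p : ℕ) (hp : p.Prime) (n : ℕ) (g : G) :
    ∃ γ : AlgInt, χ g ^ p ^ n - χ (g ^ p ^ n) = (p : ℂ) * (γ : ℂ) := by
  obtain ⟨d, ρ, rfl⟩ := hχ
  obtain ⟨b, μ, hμ, hb, hsum⟩ := character_eq_sum_eigen ρ g
  have hint : ∀ i, IsIntegral ℤ (μ i) := by
    intro i
    apply IsIntegral.of_pow (orderOf_pos g)
    rw [hμ i]
    exact isIntegral_one
  have hpow : ∀ (m : ℕ) i, ρ (g ^ m) (b i) = (μ i ^ m) • b i := by
    intro m i
    induction m with
    | zero => simp
    | succ m ih =>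
      rw [pow_succ, map_mul, Module.End.mul_apply, hb, map_smul, ih, smul_smul, pow_succ, mul_comm]
  have hsum2 : ρ.character (g ^ p ^ n) = ∑ i, μ i ^ p ^ n :=
    trace_eq_sum_of_eigenbasis (ρ (g ^ p ^ n)) b (fun i => μ i ^ p ^ n) (hpow _)
  obtain ⟨r, hr⟩ := sum_pow_prime_pow_eq (R := AlgInt) p hp n Finset.univ
    (fun i => (⟨μ i, hint i⟩ : AlgInt))
  refine ⟨r, ?_⟩
  have hr' := congrArg (fun z : AlgInt => (z : ℂ)) hr
  push_cast at hr'
  rw [hsum, hsum2, hr']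
  ring

end Cfsg.Agent.Lib.Helper10
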