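import Mathlib
import Cfsg.Prelude.Def_Characters
import Cfsg.Agent.Lib.Helper10.CentSec
import Cfsg.Agent.CharLib.Complete
import Cfsg.Agent.S0868
import Cfsg.Agent.H25.Codeg

set_option autoImplicit false
set_option linter.style.haveILetI false

namespace Cfsg.Agent.Lib.Helper10

open Cfsg Cfsg.Agent.CharLib Cfsg.Agent.Lib.Helper23
open scoped ComplexConjugate

universe u

section

variable {H : Type u} [Group H] [Fintype H]

theorem sum_normSq_irr (ξ : IrrCharacter H) :
    ∑ c : H, Complex.normSq ((ξ : H → ℂ) c) = (Nat.card H : ℝ) := by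
  have hc0 : (Nat.card H : ℂ) ≠ 0 := by exact_mod_cast Nat.card_pos.ne'
  have h3 := classInner_irr_self ξ.2
  rw [classInner, inv_mul_eq_one₀ hc0] at h3
  have h4 : ((∑ c : H, Complex.normSq ((ξ : H → ℂ) c) : ℝ) : ℂ) = ((Nat.card H : ℝ) : ℂ) := by
    push_cast
    rw [h3]
    exact Finset.sum_congr rfl (fun c _ => (Complex.mul_conj _).symm)
  exact_mod_cast h4

variable (Z : Subgroup H) [Fintype Z]

theorem fr_vanish (χ : IrrCharacter H) (θ : IrrCharacter Z) (e : ℕ) (he : e ^ 2 = Z.index)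
    (hres : ∀ z : Z, (χ : H → ℂ) z = (e : ℂ) * (θ : Z → ℂ) z) {h : H} (hh : h ∉ Z) :
    (χ : H → ℂ) h = 0 := by
  classical
  have h1 := sum_normSq_irr χ
  have h2 := sum_normSq_irr θ
  rw [← Finset.sum_filter_add_sum_filter_not Finset.univ (fun x : H => x ∈ Z)] at h1
  have h3 : ∑ x ∈ Finset.univ.filter (fun x : H => x ∈ Z), Complex.normSq ((χ : H → ℂ) x) =
      (Nat.card H : ℝ) := by
    rw [Finset.sum_subtype (p := fun x : H => x ∈ Z) _ (fun x => by simp)]
    have h4 : ∀ z : Z, Complex.normSq ((χ : H → ℂ) z) = (e : ℝ) ^ 2 * Complex.normSq ((θ : Z → ℂ) z) := by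
      intro z
      rw [hres z, map_mul, Complex.normSq_natCast]; ring
    rw [Finset.sum_congr rfl (fun z _ => h4 z), ← Finset.mul_sum, h2]
    have h5 := Subgroup.card_mul_index Z
    rw [← he] at h5
    rw [← h5]; push_cast; ring
  rw [h3] at h1
  have h4 : ∑ x ∈ Finset.univ.filter (fun x : H => ¬ x ∈ Z), Complex.normSq ((χ : H → ℂ) x) = 0 := by
    linarith
  have h5 := (Finset.sum_eq_zero_iff_of_nonneg (fun x _ => Complex.normSq_nonneg _)).1 h4 h
    (by simp [hh])
  exact Complex.normSq_eq_zero.1 h5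

theorem fr_unique (χ : IrrCharacter H) (θ : IrrCharacter Z) (e : ℕ) (he : e ^ 2 = Z.index)
    (hres : ∀ z : Z, (χ : H → ℂ) z = (e : ℂ) * (θ : Z → ℂ) z) (ξ : IrrCharacter H) (hne : ξ ≠ χ) :
    classInner (fun z : Z => (ξ : H → ℂ) z) (θ : Z → ℂ) = 0 := by
  classical
  obtain ⟨m, hm, hm2⟩ := H2.exists_mult (H2.isCharacter_indFun Z (isCharacter_of_irr θ.2))
  have hfr : ∀ ζ : IrrCharacter H, classInner (fun z : Z => (ζ : H → ℂ) z) (θ : Z → ℂ) = m ζ := by
    intro ζ
    have h1 := H2.frobenius_reciprocity Z (θ : Z → ℂ) (isClassFunction_of_irr ζ.2)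
    rw [hm2 ζ] at h1
    rw [← classInner_conj_symm, ← h1, Complex.conj_natCast]
  have hmχ : m χ = e := by
    have h1 := hfr χ
    have h2 : (fun z : Z => (χ : H → ℂ) z) = (e : ℂ) • (θ : Z → ℂ) := by
      funext z; rw [hres z]; rfl
    rw [h2, classInner_smul_left, classInner_irr_self θ.2, mul_one] at h1
    exact_mod_cast h1.symm
  have hcdχ : charDegree (χ : H → ℂ) = e * charDegree (θ : Z → ℂ) := by
    apply Cfsg.Agent.H25.charDegree_of_apply_one
    have := hres 1
    rw [OneMemClass.coe_one] at this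
    rw [this, ← charDegree_cast_irr θ]; push_cast; ring
  have hdeg : ∑ ζ : IrrCharacter H, m ζ * charDegree (ζ : H → ℂ) = Z.index * charDegree (θ : Z → ℂ) := by
    have h4 := congrFun hm 1
    simp only [Finset.sum_apply, Pi.smul_apply, smul_eq_mul] at h4
    rw [H2.indFun_apply_one, ← charDegree_cast_irr θ] at h4
    have h5 : ((∑ ζ : IrrCharacter H, m ζ * charDegree (ζ : H → ℂ) : ℕ) : ℂ) =
        ((Z.index * charDegree (θ : Z → ℂ) : ℕ) : ℂ) := by
      push_cast
      rw [h4]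
      exact Finset.sum_congr rfl fun ζ _ => by rw [charDegree_cast_irr ζ]
    exact_mod_cast h5
  rw [← Finset.add_sum_erase Finset.univ _ (Finset.mem_univ χ), hmχ, hcdχ, ← he] at hdeg
  have h6 : ∑ ζ ∈ Finset.univ.erase χ, m ζ * charDegree (ζ : H → ℂ) = 0 := by
    have : e * (e * charDegree (θ : Z → ℂ)) = e ^ 2 * charDegree (θ : Z → ℂ) := by ring
    omega
  have h7 := (Finset.sum_eq_zero_iff.1 h6) ξ (Finset.mem_erase.2 ⟨hne, Finset.mem_univ _⟩)
  have h8 : charDegree (ξ : H → ℂ) ≠ 0 := by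
    intro h
    have := charDegree_cast_irr ξ
    rw [h] at this
    exact irr_apply_one_ne_zero ξ (by simpa using this.symm)
  rw [hfr ξ]
  rcases Nat.mul_eq_zero.1 h7 with h9 | h9
  · rw [h9]; simp
  · exact absurd h9 h8

/-- coset sums against an extension vanish for characters not lying over it -/
theorem sum_coset_eq_zero [Z.Normal] {φ : H → ℂ} (hφ : IsIrrCharacter H φ)
    (hφZ : IsIrrCharacter Z (fun n : Z => φ n)) {Ξ : H → ℂ} (hΞ : IsCharacter H Ξ)
    (h0 : classInner (fun n : Z => Ξ n) (fun n : Z => φ n) = 0) (g : H) :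
    ∑ n : Z, Ξ ((n : H) * g) * conj (φ ((n : H) * g)) = 0 := by
  classical
  obtain ⟨m, hm, -⟩ := H2.exists_mult hΞ
  have hk : ∀ ψ : IrrCharacter H, ∃ k : ℕ,
      classInner (fun n : Z => (ψ : H → ℂ) n) (fun n : Z => φ n) = k := fun ψ =>
    classInner_char_nat (isCharacter_restrict (isCharacter_of_irr ψ.2) Z) (isCharacter_of_irr hφZ)
  choose k hk using hk
  have h1 : (fun n : Z => Ξ n) = ∑ ψ : IrrCharacter H, (m ψ : ℂ) • (fun n : Z => (ψ : H → ℂ) n) := by
    funext n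
    rw [hm]
    simp only [Finset.sum_apply, Pi.smul_apply]
  rw [h1, classInner_sum_left] at h0
  simp only [classInner_smul_left, hk] at h0
  have h2 : ∑ ψ : IrrCharacter H, m ψ * k ψ = 0 := by exact_mod_cast h0
  have h3 : ∀ ψ : IrrCharacter H, (m ψ : ℂ) *
      ∑ n : Z, (ψ : H → ℂ) ((n : H) * g) * conj (φ ((n : H) * g)) = 0 := by
    intro ψ
    rcases Nat.mul_eq_zero.1 ((Finset.sum_eq_zero_iff.1 h2) ψ (Finset.mem_univ _)) with h4 | h4
    · rw [h4]; simp
    · have h5 := (Cfsg.Agent.S0868.result Z φ hφ hφZ ψ ψ.2 _ rfl).2.1 (by rw [hk, h4]; simp)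
      have h6 := congrFun h5 g
      simp only [Pi.zero_apply] at h6
      have hN0 : ((Nat.card Z : ℂ))⁻¹ ≠ 0 := by
        apply inv_ne_zero
        exact_mod_cast Nat.card_pos.ne'
      rw [(mul_eq_zero.1 h6).resolve_left hN0, mul_zero]
  have h4 : ∀ n : Z, Ξ ((n : H) * g) * conj (φ ((n : H) * g)) =
      ∑ ψ : IrrCharacter H, (m ψ : ℂ) * ((ψ : H → ℂ) ((n : H) * g) * conj (φ ((n : H) * g))) := by
    intro n
    rw [hm]
    simp only [Finset.sum_apply, Pi.smul_apply, smul_eq_mul, Finset.sum_mul, mul_assoc]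
  rw [Finset.sum_congr rfl (fun n _ => h4 n), Finset.sum_comm]
  apply Finset.sum_eq_zero
  intro ψ _
  rw [← Finset.mul_sum]
  exact h3 ψ

end

end Cfsg.Agent.Lib.Helper10
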