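import Mathlib
import Cfsg.Prelude.Def_Characters
import Cfsg.Agent.Lib.Helper10.FullyRam
import Cfsg.Agent.H6.CliffCorr

set_option autoImplicit false
set_option linter.style.haveILetI false

namespace Cfsg.Agent.Lib.Helper10

open Cfsg Cfsg.Agent.CharLib Cfsg.Agent.Lib.Helper23
open scoped ComplexConjugate

universe u

section

variable {H : Type u} [Group H] [Fintype H]

/-- sum over a coset written with an indicator -/
theorem sum_ite_coset (N : Subgroup H) [Fintype N] [DecidablePred (· ∈ N)] (g : H) (w : H → ℂ) :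
    ∑ c : H, (if c * g⁻¹ ∈ N then w c else 0) = ∑ n : N, w ((n : H) * g) := by
  classical
  rw [← Fintype.sum_equiv (Equiv.mulRight g) (fun c => if c ∈ N then w (c * g) else 0)
    (fun c => if c * g⁻¹ ∈ N then w c else 0) (fun c => by simp)]
  rw [← Finset.sum_filter, Finset.sum_subtype (p := fun x : H => x ∈ N) _ (fun x => by simp)]

variable (Z : Subgroup H) [Fintype Z]

theorem fr_ext_vanish [Z.Normal] (χ : IrrCharacter H) (θ : IrrCharacter Z) (e : ℕ)
    (he : e ^ 2 = Z.index)
    (hres : ∀ z : Z, (χ : H → ℂ) z = (e : ℂ) * (θ : Z → ℂ) z)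
    (D : Subgroup H) (hZD : Z ≤ D) (φ : D → ℂ) (hφ : IsIrrCharacter D φ)
    (hφZ : ∀ z : Z, φ ⟨z, hZD z.2⟩ = (θ : Z → ℂ) z)
    (g : D) (hg : (g : H) ∉ Z) (hcen : ∀ x : H, x⁻¹ * g * x * (g : H)⁻¹ ∈ Z ↔ x ∈ D) :
    φ g = 0 := by
  classical
  letI : Fintype D := Fintype.ofFinite _
  let Z' : Subgroup D := Z.subgroupOf D
  haveI : Z'.Normal := Subgroup.Normal.subgroupOf inferInstance D
  letI : Fintype Z' := Fintype.ofFinite _
  let eq : Z' ≃* Z := Subgroup.subgroupOfEquivOfLe hZD
  have hφZ' : (fun n : Z' => φ n) = fun n => (θ : Z → ℂ) (eq n) := by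
    funext n; exact hφZ (eq n)
  have hφZirr : IsIrrCharacter Z' (fun n : Z' => φ n) := by
    rw [hφZ']; exact isIrrCharacter_comp_of_surjective θ.2 eq.toMonoidHom eq.surjective
  let F : D → ℂ := fun c => if c * g⁻¹ ∈ Z' then φ c else 0
  have hf0 : indFun D F = 0 := by
    apply eq_zero_of_classInner_irr_eq_zero (H2.isClassFunction_indFun D F)
    intro ξ hξ
    rw [H2.frobenius_reciprocity D F (isClassFunction_of_irr hξ), classInner]
    have h1 : ∑ c : D, F c * conj (ξ c) = ∑ n : Z', φ ((n : D) * g) * conj (ξ (((n : D) * g : D) : H)) := by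
      rw [← sum_ite_coset Z' g (fun c => φ c * conj (ξ c))]
      refine Finset.sum_congr rfl fun c _ => ?_
      show (if c * g⁻¹ ∈ Z' then φ c else 0) * conj (ξ c) = _
      split_ifs <;> simp
    rw [h1]
    by_cases hξχ : (⟨ξ, hξ⟩ : IrrCharacter H) = χ
    · rw [Finset.sum_eq_zero, mul_zero]
      intro n _
      have h2 : ξ (((n : D) * g : D) : H) = 0 := by
        have h3 := fr_vanish Z χ θ e he hres (h := (((n : D) * g : D) : H)) (by
          intro h4
          apply hg
          have h5 : ((n : D) : H) ∈ Z := Subgroup.mem_subgroupOf.1 n.2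
          have h6 : (((n : D) * g : D) : H) = ((n : D) : H) * (g : H) := rfl
          rw [h6] at h4
          exact (Subgroup.mul_mem_cancel_left Z h5).1 h4)
        rw [← hξχ] at h3
        exact h3
      rw [h2]; simp
    · have h2 := fr_unique Z χ θ e he hres ⟨ξ, hξ⟩ hξχ
      have h3 : classInner (fun n : Z' => (fun d : D => ξ d) n) (fun n : Z' => φ n) = 0 := by
        rw [hφZ', ← h2]
        exact H6.classInner_comp_mulEquiv eq (fun z : Z => ξ z) (θ : Z → ℂ)
      have h4 := sum_coset_eq_zero Z' hφ hφZirr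
        (isCharacter_restrict (isCharacter_of_irr hξ) D) h3 g
      have h5 : ∑ n : Z', φ ((n : D) * g) * conj (ξ (((n : D) * g : D) : H)) =
          conj (∑ n : Z', ξ (((n : D) * g : D) : H) * conj (φ ((n : D) * g))) := by
        rw [map_sum]
        refine Finset.sum_congr rfl fun n _ => ?_
        rw [map_mul, Complex.conj_conj, mul_comm]
      rw [h5]
      have h6 : ∑ n : Z', ξ (((n : D) * g : D) : H) * conj (φ ((n : D) * g)) = 0 := h4
      rw [h6]; simp
  have h1 := congrFun hf0 (g : H)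
  rw [H2.indFun_apply] at h1
  have h2 : ∀ x : H, extendByZero D F (x⁻¹ * g * x) = if x ∈ D then φ g else 0 := by
    intro x
    by_cases hx : x ∈ D
    · rw [if_pos hx]
      have h3 : x⁻¹ * g * x ∈ D := D.mul_mem (D.mul_mem (D.inv_mem hx) g.2) hx
      rw [H2.extendByZero_of_mem _ _ h3]
      show (if (⟨x⁻¹ * g * x, h3⟩ : D) * g⁻¹ ∈ Z' then _ else _) = _
      rw [if_pos (Subgroup.mem_subgroupOf.2 ((hcen x).2 hx))]
      have h4 := isClassFunction_of_irr hφ g (⟨x, hx⟩ : D)⁻¹
      rw [← h4]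
      congr 1
      apply Subtype.ext
      simp
    · rw [if_neg hx]
      by_cases h3 : x⁻¹ * g * x ∈ D
      · rw [H2.extendByZero_of_mem _ _ h3]
        show (if (⟨x⁻¹ * g * x, h3⟩ : D) * g⁻¹ ∈ Z' then _ else _) = _
        rw [if_neg]
        intro h4
        exact hx ((hcen x).1 (Subgroup.mem_subgroupOf.1 h4))
      · exact H2.extendByZero_of_not_mem _ _ h3
  rw [Finset.sum_congr rfl (fun x _ => h2 x), ← Finset.sum_filter, Finset.sum_const,
    nsmul_eq_mul] at h1
  have h3 : (Finset.univ.filter (fun x : H => x ∈ D)).card = Nat.card D := by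
    rw [Nat.card_eq_fintype_card, Fintype.card_subtype]
  rw [h3] at h1
  have hc0 : (Nat.card D : ℂ) ≠ 0 := by exact_mod_cast Nat.card_pos.ne'
  rw [Pi.zero_apply, ← mul_assoc, inv_mul_cancel₀ hc0, one_mul] at h1
  exact h1

end

end Cfsg.Agent.Lib.Helper10
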