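import Mathlib
import Cfsg.Agent.Lib.Helper10.QdOdd
import Cfsg.Agent.H4.QdChain
import Cfsg.Agent.S1242
import Cfsg.Agent.H20.PLocal
import Cfsg.Agent.Lib.Helper8.Fus
import Cfsg.Agent.Fus.Embedded

/-! A maximal subgroup `M` of a perfect simple group of odd order with `C_M(O_p(M)) ≤ O_p(M) ≠ 1`
has no nontrivial `p`-quotient (Glauberman's ZJ theorem + focal subgroup theorem). -/

set_option autoImplicit false
set_option linter.style.haveILetI false
set_option linter.unusedSectionVars false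

namespace Cfsg.Agent.Lib.Helper10

open Cfsg Subgroup Cfsg.Agent.H12 Cfsg.Agent.H4.QdC

universe u

theorem no_pquotient_coatom {G : Type u} [Group G] [Finite G] (hodd : Odd (Nat.card G))
    [IsSimpleGroup G] (hperf : commutator G = ⊤) (M : Subgroup G) (hM : IsCoatom M)
    (p : ℕ) (hp : p.Prime) (hH1 : pCore p ↥M ≠ ⊥)
    (hCH : centralizer (pCore p ↥M : Set ↥M) ≤ pCore p ↥M)
    (T : Subgroup ↥M) (hTn : T.Normal) (hT : T ≠ ⊤) (n : ℕ) (hTi : T.index = p ^ n) : False := by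
  haveI : Fact p.Prime := ⟨hp⟩
  have hoddM : Odd (Nat.card M) := Odd.of_dvd_nat hodd (Subgroup.card_subgroup_dvd_card M)
  have hn : n ≠ 0 := by
    intro h0
    rw [h0, pow_zero, Subgroup.index_eq_one] at hTi
    exact hT hTi
  have hp2 : p ≠ 2 := by
    intro h0
    have h1 : p ∣ T.index := hTi ▸ dvd_pow_self p hn
    have h2 : 2 ∣ Nat.card M := h0 ▸ h1.trans (Subgroup.index_dvd_card T)
    exact (Nat.not_even_iff_odd.2 hoddM) (even_iff_two_dvd.2 h2)
  have hqdM : ¬ Involves ↥(qd p) ↥M := not_involves_qd_of_odd hoddM p hp2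
  have hqdG : ¬ Involves ↥(qd p) G := not_involves_qd_of_odd hodd p hp2
  obtain ⟨S₀⟩ : Nonempty (Sylow p ↥M) := inferInstance
  have hZ₀ : (centerThompsonAOf (S₀ : Subgroup M)).Normal := Cfsg.Agent.S0664.result hp2 hqdM hCH S₀
  set P₀ : Subgroup G := (S₀ : Subgroup M).map M.subtype with hP₀
  have hP₀p : IsPGroup p P₀ := S₀.2.map _
  have hP₀M : P₀ ≤ M := Subgroup.map_subtype_le _
  have hS₀1 : (S₀ : Subgroup M) ≠ ⊥ := by
    intro h0
    have h1 : pCore p ↥M ≤ S₀ := Cfsg.Agent.Fus.normal_pSubgroup_le_sylow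
      (Cfsg.Agent.Fus.pCore_normal' p M) Cfsg.Agent.Fus.pCore_isPGroup S₀
    rw [h0, le_bot_iff] at h1
    exact hH1 h1
  have hP₀1 : P₀ ≠ ⊥ := by
    intro h0
    rw [hP₀, Subgroup.map_eq_bot_iff_of_injective _ M.subtype_injective] at h0
    exact hS₀1 h0
  set Z : Subgroup G := centerThompsonAOf P₀ with hZ
  have hZmap : (centerThompsonAOf (S₀ : Subgroup M)).map M.subtype = Z := by
    rw [hZ, ← inducedFunctor_zjF, ← inducedFunctor_zjF]
    exact inducedFunctor_map (isCharPFunctor_zjF (p := p)) M.subtype _ S₀.2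
      M.subtype_injective.injOn
  have hZ1 : Z ≠ ⊥ := by
    rw [hZ, ← inducedFunctor_zjF]
    exact inducedFunctor_ne_bot (isCharPFunctor_zjF (p := p)) _ hP₀p hP₀1
  have hZP : Z ≤ P₀ := zj_le _
  have hMN : M ≤ normalizer (Z : Set G) := by
    have h1 := Subgroup.le_normalizer_map (H := centerThompsonAOf (S₀ : Subgroup M)) M.subtype
    rw [hZmap, Subgroup.normalizer_eq_top_iff.2 hZ₀, ← MonoidHom.range_eq_map,
      Subgroup.range_subtype] at h1
    exact h1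
  have hNtop : normalizer (Z : Set G) ≠ ⊤ := by
    intro h0
    have hZn : Z.Normal := Subgroup.normalizer_eq_top_iff.1 h0
    rcases hZn.eq_bot_or_eq_top with h1 | h1
    · exact hZ1 h1
    · exact hM.1 (top_le_iff.1 (h1 ▸ hZP.trans hP₀M))
  have hNM : normalizer (Z : Set G) = M := (hM.le_iff_eq hNtop).1 hMN
  obtain ⟨S, hP₀S⟩ := hP₀p.exists_le_sylow
  have hSM : ∀ x ∈ S, x ∈ M → x ∈ P₀ := by
    intro x hxS hxM
    have h1 : IsPGroup p ((S : Subgroup G).subgroupOf M) :=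
      S.2.comap_of_injective M.subtype M.subtype_injective
    have h2 : (S₀ : Subgroup M) ≤ (S : Subgroup G).subgroupOf M := by
      intro y hy
      exact Subgroup.mem_subgroupOf.2 (hP₀S (Subgroup.mem_map_of_mem M.subtype hy))
    have h3 := S₀.3 h1 h2
    have h4 : (⟨x, hxM⟩ : M) ∈ (S₀ : Subgroup M) := by
      rw [← h3]; exact Subgroup.mem_subgroupOf.2 hxS
    exact ⟨⟨x, hxM⟩, h4, rfl⟩
  have hNP : normalizer (P₀ : Set G) ≤ M := by
    have := normalizer_le_normalizer_functor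
      (isConjugacyFunctor_induced (H := G) (isCharPFunctor_zjF (p := p))) hP₀p
    rw [inducedFunctor_zjF] at this
    exact this.trans hNM.le
  have hP₀eq : P₀ = S := by
    by_contra hne
    obtain ⟨g, hgS, hgN, hgP⟩ :=
      Cfsg.Agent.H20.exists_normalizer_notMem S.2 (lt_of_le_of_ne hP₀S hne)
    exact hgP (hSM g hgS (hNP hgN))
  have hSleM : (S : Subgroup G) ≤ M := hP₀eq ▸ hP₀M
  have hidx : Nat.Coprime p M.index := by
    rw [hp.coprime_iff_not_dvd]
    intro h0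
    exact S.not_dvd_index (h0.trans (Subgroup.index_dvd_of_le hSleM))
  have hconjM : ∀ g ∈ M, (∃ k : ℕ, orderOf g = p ^ k) → ∃ m ∈ M, m * g * m⁻¹ ∈ S := by
    rintro g hg ⟨k, hk⟩
    have h1 : orderOf (⟨g, hg⟩ : M) = p ^ k := by
      rw [← hk]; exact (Subgroup.orderOf_mk g hg)
    obtain ⟨m, hm⟩ := Cfsg.Agent.Lib.Helper8.exists_conj_mem_sylow S₀ h1
    refine ⟨m, m.2, ?_⟩
    show (m : G) * g * (m : G)⁻¹ ∈ (S : Subgroup G)
    rw [← hP₀eq]
    exact ⟨_, hm, rfl⟩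
  have hctl : ∀ x ∈ S, ∀ b : G, b * x * b⁻¹ ∈ S → ∃ y ∈ M, y * x * y⁻¹ = b * x * b⁻¹ := by
    intro x hx g hg
    have hA : Subgroup.zpowers x ≤ S := Subgroup.zpowers_le.mpr hx
    have hAg : cj (Subgroup.zpowers x) g⁻¹ ≤ S := by
      unfold cj
      rw [inv_inv, MonoidHom.map_zpowers, Subgroup.zpowers_le]
      exact hg
    obtain ⟨y, hy, e⟩ := zj_control hp2 hqdG S hA hAg
    rw [← hP₀eq, ← hZ, hNM] at hy
    refine ⟨y⁻¹, inv_mem hy, ?_⟩
    have := e x (Subgroup.mem_zpowers x)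
    simpa using this
  have hfus : ∀ g ∈ M, (∃ k : ℕ, orderOf g = p ^ k) → ∀ a : G, a * g * a⁻¹ ∈ M →
      ∃ h ∈ M, h * g * h⁻¹ = a * g * a⁻¹ := by
    intro g hg hgo a hag
    obtain ⟨m₁, hm₁, h1⟩ := hconjM g hg hgo
    have hgo' : ∃ k : ℕ, orderOf (a * g * a⁻¹) = p ^ k := by
      obtain ⟨k, hk⟩ := hgo
      exact ⟨k, by rw [← hk]; exact (MulAut.conj a).orderOf_eq g⟩
    obtain ⟨m₂, hm₂, h2⟩ := hconjM _ hag hgo'
    have h3 : (m₂ * a * m₁⁻¹) * (m₁ * g * m₁⁻¹) * (m₂ * a * m₁⁻¹)⁻¹ = m₂ * (a * g * a⁻¹) * m₂⁻¹ := by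
      group
    obtain ⟨y, hy, h4⟩ := hctl _ h1 (m₂ * a * m₁⁻¹) (h3 ▸ h2)
    refine ⟨m₂⁻¹ * y * m₁, M.mul_mem (M.mul_mem (M.inv_mem hm₂) hy) hm₁, ?_⟩
    calc m₂⁻¹ * y * m₁ * g * (m₂⁻¹ * y * m₁)⁻¹
        = m₂⁻¹ * (y * (m₁ * g * m₁⁻¹) * y⁻¹) * m₂ := by group
      _ = m₂⁻¹ * (m₂ * (a * g * a⁻¹) * m₂⁻¹) * m₂ := by rw [h4, h3]
      _ = a * g * a⁻¹ := by group
  have hfoc := Cfsg.Agent.S1242.result M hidx hfus
  rw [hperf, sup_top_eq, top_inf_eq] at hfoc
  have htopM : pResidual p ↥M ⊔ commutator ↥M = ⊤ := by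
    apply Subgroup.map_injective M.subtype_injective
    rw [← hfoc, ← MonoidHom.range_eq_map, Subgroup.range_subtype]
  -- the quotient
  have hQcard : Nat.card (↥M ⧸ T) = p ^ n := hTi
  have hQp : IsPGroup p (↥M ⧸ T) := IsPGroup.of_card hQcard
  haveI : Nontrivial (↥M ⧸ T) := (QuotientGroup.nontrivial_iff).2 hT
  haveI : Group.IsNilpotent (↥M ⧸ T) := hQp.isNilpotent
  have hlt : commutator (↥M ⧸ T) < ⊤ := Group.IsSolvable.commutator_lt_top_of_nontrivial _
  apply hlt.ne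
  have hres : (pResidual p ↥M).map (QuotientGroup.mk' T) = ⊥ := by
    rw [← le_bot_iff, Subgroup.map_le_iff_le_comap]
    unfold pResidual
    rw [Subgroup.closure_le]
    intro g hg
    have hg' : Nat.Coprime (orderOf g) p := hg
    show QuotientGroup.mk' T g ∈ (⊥ : Subgroup (↥M ⧸ T))
    rw [Subgroup.mem_bot]
    obtain ⟨k, hk⟩ := hQp (QuotientGroup.mk' T g)
    have h1 : orderOf (QuotientGroup.mk' T g) ∣ p ^ k := orderOf_dvd_of_pow_eq_one hk
    have h2 : orderOf (QuotientGroup.mk' T g) ∣ orderOf g := orderOf_map_dvd _ g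
    have h3 : Nat.Coprime (orderOf g) (p ^ k) := Nat.Coprime.pow_right k hg'
    have h4 : orderOf (QuotientGroup.mk' T g) = 1 :=
      Nat.eq_one_of_dvd_coprimes h3 h2 h1
    exact orderOf_eq_one_iff.1 h4
  have h5 := congrArg (Subgroup.map (QuotientGroup.mk' T)) htopM
  rw [Subgroup.map_sup, hres, bot_sup_eq,
    Subgroup.map_top_of_surjective _ (QuotientGroup.mk'_surjective T)] at h5
  rw [← top_le_iff, ← h5, _root_.commutator_def, _root_.commutator_def, Subgroup.map_commutator]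
  exact Subgroup.commutator_mono le_top le_top

end Cfsg.Agent.Lib.Helper10
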