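import Mathlib
import Cfsg.Agent.Lib.Helper10.NoThree
import Cfsg.Agent.Lib.Helper10.NoThree2
import Cfsg.Agent.Lib.Helper13.NilMax

/-! Maximal subgroups of minimal simple CN-groups of odd order are of Frobenius type. -/

set_option autoImplicit false
set_option linter.style.haveILetI false
set_option linter.unusedSectionVars false

namespace Cfsg.Agent.Lib.Helper10

open Cfsg Subgroup

universe u

theorem fpf_comm_surj {Y : Type u} [Group Y] [Finite Y] (K : Subgroup Y) [hKn : K.Normal] {a : Y}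
    (hfpf : K ⊓ centralizer ({a} : Set Y) = ⊥) : ∀ k ∈ K, ∃ h ∈ K, h * a * h⁻¹ * a⁻¹ = k := by
  let f : K → K := fun h => ⟨(h : Y) * a * (h : Y)⁻¹ * a⁻¹, by
    have : (h : Y) * a * (h : Y)⁻¹ * a⁻¹ = h * (a * (h : Y)⁻¹ * a⁻¹) := by group
    rw [this]
    exact K.mul_mem h.2 (hKn.conj_mem _ (K.inv_mem h.2) a)⟩
  have hinj : Function.Injective f := by
    intro h h' hh
    have h1 : (h : Y) * a * (h : Y)⁻¹ * a⁻¹ = h' * a * (h' : Y)⁻¹ * a⁻¹ := congrArg Subtype.val hh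
    have h2 : (h : Y) * a * (h : Y)⁻¹ = h' * a * (h' : Y)⁻¹ := mul_right_cancel h1
    have h3 : ((h' : Y)⁻¹ * h) * a = a * ((h' : Y)⁻¹ * h) := by
      calc ((h' : Y)⁻¹ * h) * a = (h' : Y)⁻¹ * (h * a * (h : Y)⁻¹) * h := by group
        _ = (h' : Y)⁻¹ * (h' * a * (h' : Y)⁻¹) * h := by rw [h2]
        _ = a * ((h' : Y)⁻¹ * h) := by group
    have h4 : (h' : Y)⁻¹ * h ∈ K ⊓ centralizer ({a} : Set Y) :=
      ⟨K.mul_mem (K.inv_mem h'.2) h.2, mem_centralizer_singleton_iff.2 h3⟩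
    rw [hfpf, mem_bot] at h4
    apply Subtype.ext
    exact (inv_mul_eq_one.1 h4).symm
  have hsurj : Function.Surjective f := Finite.injective_iff_surjective.1 hinj
  intro k hk
  obtain ⟨h', hh'⟩ := hsurj ⟨k, hk⟩
  exact ⟨h', h'.2, congrArg Subtype.val hh'⟩

/-- in a Frobenius-type group, elements outside the kernel act fixed-point-freely on it -/
theorem frob_outside_fpf {Y : Type u} [Group Y] [Finite Y] (K E : Subgroup Y) [hKn : K.Normal]
    (hc : IsComplement' K E) (hfpf : ∀ e ∈ E, e ≠ 1 → K ⊓ centralizer ({e} : Set Y) = ⊥)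
    {x : Y} (hx : x ∉ K) : K ⊓ centralizer ({x} : Set Y) = ⊥ := by
  have hxS : x ∈ ((K ⊔ E : Subgroup Y) : Set Y) := by rw [hc.sup_eq_top]; trivial
  rw [Subgroup.normal_mul] at hxS
  obtain ⟨k, hk, e, he, hke⟩ := Set.mem_mul.1 hxS
  have he1 : e ≠ 1 := by
    intro h0
    rw [h0, mul_one] at hke
    exact hx (hke ▸ hk)
  obtain ⟨h, hh, hhk⟩ := fpf_comm_surj K (hfpf e he he1) k hk
  have hxe : x = h * e * h⁻¹ := by rw [← hke, ← hhk]; group
  rw [eq_bot_iff]
  rintro z ⟨hzK, hzC⟩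
  have hzx : z * x = x * z := mem_centralizer_singleton_iff.1 hzC
  have h1 : (h⁻¹ * z * h) * e = e * (h⁻¹ * z * h) := by
    calc (h⁻¹ * z * h) * e = h⁻¹ * (z * (h * e * h⁻¹)) * h := by group
      _ = h⁻¹ * ((h * e * h⁻¹) * z) * h := by rw [← hxe, hzx]
      _ = e * (h⁻¹ * z * h) := by group
  have h2 : h⁻¹ * z * h ∈ K ⊓ centralizer ({e} : Set Y) := by
    refine ⟨?_, mem_centralizer_singleton_iff.2 h1⟩
    have := hKn.conj_mem z hzK h⁻¹
    rwa [inv_inv] at this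
  rw [hfpf e he he1, mem_bot] at h2
  rw [mem_bot]
  calc z = h * (h⁻¹ * z * h) * h⁻¹ := by group
    _ = 1 := by rw [h2]; group

/-- Normalizers grow in nilpotent groups. -/
theorem exists_normalizer_notMem_nil {G : Type u} [Group G] {P Q : Subgroup G}
    (hQ : Group.IsNilpotent Q) (hPQ : P < Q) :
    ∃ g ∈ Q, g ∈ Subgroup.normalizer (P : Set G) ∧ g ∉ P := by
  have hlt : P.subgroupOf Q < ⊤ := by
    rw [lt_top_iff_ne_top]
    intro h
    rw [Subgroup.subgroupOf_eq_top] at h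
    exact absurd h (not_le_of_gt hPQ)
  have h1 := Group.normalizerCondition_of_isNilpotent (G := Q) _ hlt
  obtain ⟨g, hgN, hg⟩ := SetLike.exists_of_lt h1
  refine ⟨g, g.2, ?_, fun h => hg (Subgroup.mem_subgroupOf.2 h)⟩
  rw [Subgroup.mem_normalizer_iff] at hgN ⊢
  intro x
  constructor
  · intro hx
    have := (hgN ⟨x, hPQ.le hx⟩).1 (Subgroup.mem_subgroupOf.2 hx)
    exact Subgroup.mem_subgroupOf.1 this
  · intro hx
    have hxQ : x ∈ Q := by
      have h2 := Q.mul_mem (Q.mul_mem (Q.inv_mem g.2) (hPQ.le hx)) g.2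
      have h3 : (g : G)⁻¹ * ((g : G) * x * (g : G)⁻¹) * g = x := by group
      rwa [h3] at h2
    have := (hgN ⟨x, hxQ⟩).2 (Subgroup.mem_subgroupOf.2 hx)
    exact Subgroup.mem_subgroupOf.1 this

theorem cn_odd_no_normal_sylow {Y : Type u} [Group Y] [Finite Y] [Group.IsSolvable Y]
    (hCN : IsCNGroup Y) (hnil : ¬ Group.IsNilpotent Y)
    (hns : ∀ (q : ℕ) [Fact q.Prime] (P : Sylow q Y), (P : Subgroup Y).Normal →
        (P : Subgroup Y) = ⊥) :
    ∃ p : ℕ, p.Prime ∧ pCore p Y ≠ ⊥ ∧ centralizer (pCore p Y : Set Y) ≤ pCore p Y ∧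
      ∃ T : Subgroup Y, T.Normal ∧ T ≠ ⊤ ∧ ∃ n : ℕ, T.index = p ^ n := by
  haveI : Nontrivial Y := by
    by_contra hne
    rw [not_nontrivial_iff_subsingleton] at hne
    exact hnil inferInstance
  obtain ⟨p, hp, hH1, hCH⟩ := exists_pCore_selfcent hCN hns
  haveI : Fact p.Prime := ⟨hp⟩
  refine ⟨p, hp, hH1, hCH, ?_⟩
  haveI hHn : (pCore p Y).Normal := Cfsg.Agent.Fus.pCore_normal' p Y
  have hHp : IsPGroup p (pCore p Y) := Cfsg.Agent.Fus.pCore_isPGroup
  have hB1 : ∀ e : Y, e ≠ 1 → ¬ p ∣ orderOf e →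
      pCore p Y ⊓ Subgroup.centralizer ({e} : Set Y) = ⊥ :=
    fun e he1 hpe => pprime_fpf hCN (pCore p Y) hHp hH1 hCH he1 hpe
  obtain ⟨P, hHP⟩ := hHp.exists_le_sylow
  have hne : pCore p Y ≠ (P : Subgroup Y) := by
    intro h0
    have h1 := hns p P (h0 ▸ hHn)
    exact hH1 (h0.trans h1)
  obtain ⟨w₀, hw₀P, hw₀⟩ := SetLike.exists_of_lt (lt_of_le_of_ne hHP hne)
  obtain ⟨k₀, hk₀⟩ := orderOf_of_mem_pGroup P.2 hw₀P
  have hHtop : pCore p Y ≠ ⊤ := fun h0 => hw₀ (by rw [h0]; trivial)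
  obtain ⟨a, har, hpa, hHN⟩ := exists_prime_compl (pCore p Y) hHp hH1 hHtop
    (fun K hK hKp => Cfsg.Agent.Fus.le_pCore hK hKp) hB1
  obtain ⟨A, -, -, -, -, h5, h6, h7, -, -⟩ :=
    three_step_core hCN (pCore p Y) hHp hH1 hB1 har hpa hHN hw₀ hk₀
  exact ⟨pCore p Y ⊔ A, h5, h6, h7⟩

theorem map_inf_centralizer_eq_bot {G : Type u} [Group G] {M : Subgroup G} {K : Subgroup M} {x : M}
    (h : K ⊓ centralizer ({x} : Set M) = ⊥) :
    K.map M.subtype ⊓ centralizer ({(x : G)} : Set G) = ⊥ := by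
  rw [eq_bot_iff]
  rintro _ ⟨⟨z, hz, rfl⟩, hzC⟩
  have h1 : (z : G) * x = x * z := mem_centralizer_singleton_iff.1 hzC
  have h2 : z ∈ K ⊓ centralizer ({x} : Set M) :=
    ⟨hz, mem_centralizer_singleton_iff.2 (Subtype.ext h1)⟩
  rw [h, mem_bot] at h2
  rw [mem_bot, h2]
  rfl

theorem minSimple_not_solvable {G : Type u} [Group G] (hG : IsMinSimpleOddOrder G) :
    ¬ Group.IsSolvable G := by
  obtain ⟨-, hsimple, hnc, -⟩ := hG
  haveI := hsimple
  intro hs
  exact hnc ⟨⟨IsSimpleGroup.comm_iff_isSolvable.2 hs⟩⟩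

theorem minSimple_perfect {G : Type u} [Group G] (hG : IsMinSimpleOddOrder G) :
    commutator G = ⊤ := by
  obtain ⟨-, hsimple, hnc, -⟩ := hG
  haveI := hsimple
  rcases (inferInstance : (commutator G).Normal).eq_bot_or_eq_top with h | h
  · exfalso
    apply hnc
    refine ⟨⟨fun a b => ?_⟩⟩
    have h1 := Subgroup.commutator_mem_commutator (Subgroup.mem_top a) (Subgroup.mem_top b)
    rw [← _root_.commutator_def, h, Subgroup.mem_bot] at h1
    exact commutatorElement_eq_one_iff_mul_comm.1 h1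
  · exact h

theorem coatom_frob {G : Type u} [Group G] [Finite G] (hG : IsMinSimpleOddOrder G)
    (hCN : IsCNGroup G) (M : Subgroup G) (hM : IsCoatom M) :
    ∃ E : Subgroup G, IsComplIn (fittingHallOf M) E M ∧
      M ≤ normalizer (fittingHallOf M : Set G) ∧ Group.IsNilpotent (fittingHallOf M) ∧
      fittingHallOf M ≠ ⊥ ∧ E ≠ ⊥ ∧
      (∀ e ∈ E, e ≠ 1 → fittingHallOf M ⊓ centralizer ({e} : Set G) = ⊥) ∧
      (∀ u ∈ M, ∀ v ∈ M, u * v * u⁻¹ * v⁻¹ ∈ fittingHallOf M) ∧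
      (∀ x ∈ M, x ∉ fittingHallOf M → fittingHallOf M ⊓ centralizer ({x} : Set G) = ⊥) := by
  have hns := minSimple_not_solvable hG
  have hperf := minSimple_perfect hG
  obtain ⟨hodd, hsimple, hnc, hsolv⟩ := hG
  haveI := hsimple
  haveI : Group.IsSolvable M := hsolv M hM.1
  have hCNM : IsCNGroup ↥M := isCNGroup_subgroup hCN M
  have hoddM : Odd (Nat.card M) := Odd.of_dvd_nat hodd (Subgroup.card_subgroup_dvd_card M)
  have hnil : ¬ Group.IsNilpotent M := fun h =>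
    hns (Cfsg.Agent.Lib.Helper13.solvable_of_nilpotent_coatom_odd _ G rfl M hM h hoddM)
  have hex : ∃ (q : ℕ) (_ : Fact q.Prime) (P : Sylow q M),
      (P : Subgroup M) ≠ ⊥ ∧ (P : Subgroup M).Normal := by
    by_contra hex
    have hns' : ∀ (q : ℕ) [Fact q.Prime] (P : Sylow q M), (P : Subgroup M).Normal →
        (P : Subgroup M) = ⊥ := by
      intro q hq P hPn
      by_contra hne
      exact hex ⟨q, hq, P, hne, hPn⟩
    obtain ⟨p, hp, hH1, hCH, T, hTn, hT, n, hTi⟩ := cn_odd_no_normal_sylow hCNM hnil hns'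
    exact no_pquotient_coatom hodd hperf M hM p hp hH1 hCH T hTn hT n hTi
  obtain ⟨q, hq, P, hP1, hPn⟩ := hex
  obtain ⟨hH1, hHtop, ⟨E, hE, -, hfpf⟩, -⟩ := Cfsg.Agent.S1474.result hCNM hnil q P hP1 hPn
  obtain ⟨hHnil, -⟩ := fittingHall_spec (G := M)
  have hoddE : Odd (Nat.card E) := Odd.of_dvd_nat hoddM (Subgroup.card_subgroup_dvd_card E)
  haveI hcyc : IsCyclic E := fpf_cyclic_of_odd hCNM (fittingHall M) E hHnil hH1 hfpf hoddE
  have hcomm : ∀ u v : M, u * v * u⁻¹ * v⁻¹ ∈ fittingHall M := by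
    intro u v
    letI := IsCyclic.commGroup (α := E)
    let e := hE.symm.QuotientMulEquiv
    have h1 : (QuotientGroup.mk' (fittingHall M) u) * (QuotientGroup.mk' (fittingHall M) v)
        = (QuotientGroup.mk' (fittingHall M) v) * (QuotientGroup.mk' (fittingHall M) u) := by
      apply e.injective
      rw [map_mul, map_mul, mul_comm]
    rw [← QuotientGroup.eq_one_iff]
    change QuotientGroup.mk' (fittingHall M) (u * v * u⁻¹ * v⁻¹) = 1
    rw [map_mul, map_mul, map_mul, map_inv, map_inv, h1]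
    group
  have hmemK : ∀ (x : G) (hx : x ∈ M), x ∈ fittingHallOf M ↔ (⟨x, hx⟩ : M) ∈ fittingHall M := by
    intro x hx
    constructor
    · rintro ⟨y, hy, hyx⟩
      have : y = ⟨x, hx⟩ := Subtype.ext hyx
      rwa [← this]
    · intro h
      exact ⟨_, h, rfl⟩
  refine ⟨E.map M.subtype, ⟨Subgroup.map_subtype_le _, Subgroup.map_subtype_le _, ?_, ?_⟩,
    ?_, ?_, ?_, ?_, ?_, ?_, ?_⟩
  · unfold fittingHallOf
    rw [← Subgroup.map_inf _ _ _ M.subtype_injective, hE.disjoint.eq_bot, Subgroup.map_bot]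
  · intro m hm
    have hxS : (⟨m, hm⟩ : M) ∈ ((fittingHall M ⊔ E : Subgroup M) : Set M) := by
      rw [hE.sup_eq_top]; trivial
    rw [Subgroup.normal_mul] at hxS
    obtain ⟨k, hk, e, he, hke⟩ := Set.mem_mul.1 hxS
    exact ⟨k, ⟨k, hk, rfl⟩, e, ⟨e, he, rfl⟩, (congrArg Subtype.val hke).symm⟩
  · have h1 := Subgroup.le_normalizer_map (H := fittingHall M) M.subtype
    rw [Subgroup.normalizer_eq_top_iff.2 inferInstance, ← MonoidHom.range_eq_map,
      Subgroup.range_subtype] at h1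
    exact h1
  · exact Group.nilpotent_of_mulEquiv
      ((fittingHall M).equivMapOfInjective M.subtype M.subtype_injective)
  · intro h0
    unfold fittingHallOf at h0
    rw [Subgroup.map_eq_bot_iff_of_injective _ M.subtype_injective] at h0
    exact hH1 h0
  · intro h0
    rw [Subgroup.map_eq_bot_iff_of_injective _ M.subtype_injective] at h0
    have := hE.sup_eq_top
    rw [h0, sup_bot_eq] at this
    exact hHtop this
  · rintro _ ⟨e, he, rfl⟩ he1
    exact map_inf_centralizer_eq_bot (hfpf e he (fun h0 => he1 (by rw [h0]; rfl)))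
  · intro u hu v hv
    exact ⟨_, hcomm ⟨u, hu⟩ ⟨v, hv⟩, rfl⟩
  · intro x hx hxK
    have h1 : (⟨x, hx⟩ : M) ∉ fittingHall M := fun h => hxK ((hmemK x hx).2 h)
    exact map_inf_centralizer_eq_bot (frob_outside_fpf (fittingHall M) E hE hfpf h1)

end Cfsg.Agent.Lib.Helper10
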