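import Mathlib
import Cfsg.Agent.Lib.Helper10.MinCN1
import Cfsg.Agent.Lib.Helper10.MaxNil
import Cfsg.Agent.H4.Schmidt2
import Cfsg.Agent.H4.Nilp

/-! Maximal nilpotent subgroups of minimal simple CN-groups of odd order. -/

set_option autoImplicit false
set_option linter.style.haveILetI false
set_option linter.unusedSectionVars false

namespace Cfsg.Agent.Lib.Helper10

open Cfsg Subgroup

universe u

variable {G : Type u} [Group G] [Finite G]

theorem nil_le_kernel (hG : IsMinSimpleOddOrder G) (hCN : IsCNGroup G) (M : Subgroup G)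
    (hM : IsCoatom M) {A : Subgroup G} (hA : Group.IsNilpotent A) (hAM : A ≤ M)
    (hAK : A ⊓ fittingHallOf M ≠ ⊥) : A ≤ fittingHallOf M := by
  obtain ⟨E, -, hnorm, -, -, -, -, -, hout⟩ := coatom_frob hG hCN M hM
  set K := fittingHallOf M with hK
  haveI : (K.subgroupOf A).Normal := Subgroup.normal_subgroupOf_of_le_normalizer (hAM.trans hnorm)
  have hne : K.subgroupOf A ≠ ⊥ := by
    obtain ⟨⟨x, hx⟩, hx1⟩ := Subgroup.ne_bot_iff_exists_ne_one.mp hAK
    intro h0
    have h1 : (⟨x, hx.1⟩ : A) ∈ K.subgroupOf A := Subgroup.mem_subgroupOf.2 hx.2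
    rw [h0, mem_bot] at h1
    have h2 : x = 1 := congrArg Subtype.val h1
    exact hx1 (Subtype.ext h2)
  obtain ⟨⟨z, hz⟩, hz1'⟩ := Subgroup.ne_bot_iff_exists_ne_one.mp
    (Cfsg.Agent.H4.normal_inf_center_ne_bot _ hne)
  have hz1 : (z : G) ≠ 1 := fun h0 => hz1' (Subtype.ext (Subtype.ext h0))
  intro a ha
  by_contra haK
  have h1 := hout a (hAM ha) haK
  have h2 : (z : G) ∈ K ⊓ centralizer ({a} : Set G) := by
    refine ⟨hz.1, mem_centralizer_singleton_iff.2 ?_⟩
    have := (Subgroup.mem_center_iff.1 hz.2) ⟨a, ha⟩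
    exact (congrArg Subtype.val this).symm
  rw [h1, mem_bot] at h2
  exact hz1 h2

theorem normalizer_ne_top (hG : IsMinSimpleOddOrder G) {D : Subgroup G} (hD1 : D ≠ ⊥)
    (hD2 : D ≠ ⊤) : normalizer (D : Set G) ≠ ⊤ := by
  obtain ⟨-, hsimple, -, -⟩ := hG
  haveI := hsimple
  intro h0
  have hn : D.Normal := Subgroup.normalizer_eq_top_iff.1 h0
  rcases hn.eq_bot_or_eq_top with h | h
  · exact hD1 h
  · exact hD2 h

theorem normalizer_kernel (hG : IsMinSimpleOddOrder G) (hCN : IsCNGroup G) (M : Subgroup G)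
    (hM : IsCoatom M) : normalizer (fittingHallOf M : Set G) = M := by
  obtain ⟨E, hc, hnorm, -, hK1, -, -, -, -⟩ := coatom_frob hG hCN M hM
  have hne : normalizer (fittingHallOf M : Set G) ≠ ⊤ :=
    normalizer_ne_top hG hK1 (fun h => hM.1 (top_le_iff.1 (h ▸ hc.1)))
  exact (hM.le_iff_eq hne).1 hnorm

theorem kernel_max_nilpotent (hG : IsMinSimpleOddOrder G) (hCN : IsCNGroup G) (M : Subgroup G)
    (hM : IsCoatom M) :
    ∀ L : Subgroup G, Group.IsNilpotent L → fittingHallOf M ≤ L → L = fittingHallOf M := by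
  intro L hL hKL
  by_contra hne
  obtain ⟨E, -, -, -, hK1, -, -, -, -⟩ := coatom_frob hG hCN M hM
  obtain ⟨g, hgL, hgN, hgK⟩ := exists_normalizer_notMem_nil hL (lt_of_le_of_ne hKL (Ne.symm hne))
  have hA : Group.IsNilpotent (L ⊓ normalizer (fittingHallOf M : Set G) : Subgroup G) :=
    Cfsg.Agent.H4.isNilpotent_of_le inf_le_left hL
  have hAM : L ⊓ normalizer (fittingHallOf M : Set G) ≤ M :=
    inf_le_right.trans (normalizer_kernel hG hCN M hM).le
  have hAK : (L ⊓ normalizer (fittingHallOf M : Set G)) ⊓ fittingHallOf M ≠ ⊥ := by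
    have : (L ⊓ normalizer (fittingHallOf M : Set G)) ⊓ fittingHallOf M = fittingHallOf M :=
      inf_eq_right.2 (le_inf hKL le_normalizer)
    rw [this]; exact hK1
  exact hgK (nil_le_kernel hG hCN M hM hA hAM hAK ⟨hgL, hgN⟩)

theorem max_nilpotent_ne_bot [Nontrivial G] {H : Subgroup G}
    (hmax : ∀ L : Subgroup G, Group.IsNilpotent L → H ≤ L → L = H) : H ≠ ⊥ := by
  intro h0
  obtain ⟨x, hx⟩ := exists_ne (1 : G)
  have hz : Group.IsNilpotent (zpowers x) := by
    letI : CommGroup (Subgroup.zpowers x) :=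
      { (inferInstance : Group (Subgroup.zpowers x)) with mul_comm := mul_comm' }
    exact CommGroup.isNilpotent
  have h1 := hmax (zpowers x) hz (h0 ▸ bot_le)
  rw [h0, zpowers_eq_bot] at h1
  exact hx h1

theorem max_nilpotent_eq_kernel (hG : IsMinSimpleOddOrder G) (hCN : IsCNGroup G) {H : Subgroup G}
    (hH : Group.IsNilpotent H) (hmax : ∀ L : Subgroup G, Group.IsNilpotent L → H ≤ L → L = H)
    (M : Subgroup G) (hM : IsCoatom M) (hNM : normalizer (H : Set G) ≤ M) :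
    H = fittingHallOf M := by
  obtain ⟨E, -, -, hKnil, -, -, -, hcomm, -⟩ := coatom_frob hG hCN M hM
  have hHM : H ≤ M := le_normalizer.trans hNM
  by_cases hHK : H ⊓ fittingHallOf M = ⊥
  · exfalso
    have hG' := hG
    obtain ⟨-, hsimple, hnc, -⟩ := hG'
    haveI := hsimple
    have hH1 : H ≠ ⊥ := max_nilpotent_ne_bot hmax
    have hcent : ∀ n ∈ normalizer (H : Set G), ∀ h ∈ H, n * h = h * n := by
      intro n hn h hh
      have h1 : n * h * n⁻¹ * h⁻¹ ∈ H ⊓ fittingHallOf M :=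
        ⟨H.mul_mem ((mem_normalizer_iff.1 hn h).1 hh) (H.inv_mem hh),
          hcomm n (hNM hn) h (hHM hh)⟩
      rw [hHK, mem_bot] at h1
      calc n * h = (n * h * n⁻¹ * h⁻¹) * (h * n) := by group
        _ = h * n := by rw [h1, one_mul]
    have hcard : Nat.card H ≠ 1 := fun h => hH1 (Subgroup.card_eq_one.1 h)
    obtain ⟨p, hp, hpH⟩ := Nat.exists_prime_and_dvd hcard
    haveI := Fact.mk hp
    have hidx : ¬ p ∣ H.index := by
      intro h3
      have := Nat.dvd_gcd hpH h3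
      rw [hall_of_max_nilpotent hCN hH hmax] at this
      exact hp.one_lt.ne' (Nat.dvd_one.1 this)
    obtain ⟨P, hPH⟩ := Cfsg.Agent.Fus.exists_sylow_le_of_not_dvd_index (p := p) H hidx
    have hP1 : (P : Subgroup G) ≠ ⊥ :=
      Sylow.ne_bot_of_dvd_card P (hpH.trans (Subgroup.card_subgroup_dvd_card H))
    obtain ⟨⟨y, hy⟩, hy1'⟩ := Subgroup.ne_bot_iff_exists_ne_one.mp hP1
    have hy1 : y ≠ 1 := fun h0 => hy1' (Subtype.ext h0)
    have hC : ∀ w ∈ P, w ≠ 1 → centralizer ({w} : Set G) = H := fun w hw hw1 =>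
      centralizer_eq_of_central hCN hmax hw1 (fun h hh => hcent w (le_normalizer (hPH hw)) h hh)
    have hNN : normalizer ((P : Subgroup G) : Set G) ≤ normalizer (H : Set G) := by
      intro n hn
      have hy' : n * y * n⁻¹ ∈ (P : Subgroup G) := (mem_normalizer_iff.1 hn y).1 hy
      have hy'1 : n * y * n⁻¹ ≠ 1 := by
        intro h0
        apply hy1
        calc y = n⁻¹ * (n * y * n⁻¹) * n := by group
          _ = 1 := by rw [h0]; group
      rw [mem_normalizer_iff]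
      intro h
      rw [← hC y hy hy1]
      conv_rhs => rw [hC y hy hy1, ← hC _ hy' hy'1]
      rw [mem_centralizer_singleton_iff, mem_centralizer_singleton_iff]
      constructor
      · intro h1
        calc n * h * n⁻¹ * (n * y * n⁻¹) = n * (h * y) * n⁻¹ := by group
          _ = n * (y * h) * n⁻¹ := by rw [h1]
          _ = n * y * n⁻¹ * (n * h * n⁻¹) := by group
      · intro h1
        calc h * y = n⁻¹ * (n * h * n⁻¹ * (n * y * n⁻¹)) * n := by group
          _ = n⁻¹ * (n * y * n⁻¹ * (n * h * n⁻¹)) * n := by rw [h1]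
          _ = y * h := by group
    have hP : normalizer ((P : Subgroup G) : Set G) ≤ centralizer ((P : Subgroup G) : Set G) := by
      intro n hn
      rw [mem_centralizer_iff]
      intro s hs
      exact (hcent n (hNN hn) s (hPH hs)).symm
    have hcompl := MonoidHom.ker_transferSylow_isComplement' P hP
    rcases (inferInstance : (MonoidHom.transferSylow P hP).ker.Normal).eq_bot_or_eq_top with h | h
    · rw [h, isComplement'_bot_left] at hcompl
      apply hnc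
      refine ⟨⟨fun a b => ?_⟩⟩
      have ha : a ∈ H := hPH (by rw [hcompl]; trivial)
      have hb : b ∈ H := hPH (by rw [hcompl]; trivial)
      exact hcent a (le_normalizer ha) b hb
    · rw [h, isComplement'_top_left] at hcompl
      exact hP1 hcompl
  · exact (hmax _ hKnil (nil_le_kernel hG hCN M hM hH hHM hHK)).symm

/-- distinct maximal nilpotent subgroups meet trivially -/
theorem max_nilpotent_inf_eq_bot (hG : IsMinSimpleOddOrder G) (hCN : IsCNGroup G)
    {H₁ H₂ : Subgroup G} (hH₁ : Group.IsNilpotent H₁)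
    (hmax₁ : ∀ L : Subgroup G, Group.IsNilpotent L → H₁ ≤ L → L = H₁)
    (hH₂ : Group.IsNilpotent H₂)
    (hmax₂ : ∀ L : Subgroup G, Group.IsNilpotent L → H₂ ≤ L → L = H₂) (hne : H₁ ≠ H₂) :
    H₁ ⊓ H₂ = ⊥ := by
  by_contra hbad
  let S : Set (Subgroup G) := {D | D ≠ ⊥ ∧ ∃ H₁ H₂ : Subgroup G, Group.IsNilpotent H₁ ∧
    (∀ L : Subgroup G, Group.IsNilpotent L → H₁ ≤ L → L = H₁) ∧ Group.IsNilpotent H₂ ∧
    (∀ L : Subgroup G, Group.IsNilpotent L → H₂ ≤ L → L = H₂) ∧ H₁ ≠ H₂ ∧ D = H₁ ⊓ H₂}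
  obtain ⟨D, ⟨hD1, A₁, A₂, hA₁, hm₁, hA₂, hm₂, hA, hD⟩, hmin⟩ := wellFounded_gt.has_min S
    ⟨H₁ ⊓ H₂, hbad, H₁, H₂, hH₁, hmax₁, hH₂, hmax₂, hne, rfl⟩
  have hlt₁ : D < A₁ := by
    refine lt_of_le_of_ne (hD ▸ inf_le_left) fun h0 => ?_
    have : A₁ ≤ A₂ := by rw [← h0, hD]; exact inf_le_right
    exact hA (hm₁ A₂ hA₂ this).symm
  have hlt₂ : D < A₂ := by
    refine lt_of_le_of_ne (hD ▸ inf_le_right) fun h0 => ?_
    have : A₂ ≤ A₁ := by rw [← h0, hD]; exact inf_le_left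
    exact hA (hm₂ A₁ hA₁ this)
  obtain ⟨g₁, hg₁A, hg₁N, hg₁D⟩ := exists_normalizer_notMem_nil hA₁ hlt₁
  obtain ⟨g₂, hg₂A, hg₂N, hg₂D⟩ := exists_normalizer_notMem_nil hA₂ hlt₂
  have hDtop : D ≠ ⊤ := fun h0 => hg₁D (h0 ▸ mem_top g₁)
  obtain ⟨M, hM, hNM⟩ :=
    (eq_top_or_exists_le_coatom _).resolve_left (normalizer_ne_top hG hD1 hDtop)
  obtain ⟨E, -, -, hKnil, -, -, -, hcomm, -⟩ := coatom_frob hG hCN M hM
  set B₁ : Subgroup G := A₁ ⊓ normalizer (D : Set G) with hB₁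
  set B₂ : Subgroup G := A₂ ⊓ normalizer (D : Set G) with hB₂
  have hB₁n : Group.IsNilpotent B₁ := Cfsg.Agent.H4.isNilpotent_of_le inf_le_left hA₁
  have hB₂n : Group.IsNilpotent B₂ := Cfsg.Agent.H4.isNilpotent_of_le inf_le_left hA₂
  have hB₁M : B₁ ≤ M := inf_le_right.trans hNM
  have hB₂M : B₂ ≤ M := inf_le_right.trans hNM
  have hDB₁ : D ≤ B₁ := le_inf hlt₁.le le_normalizer
  have hDB₂ : D ≤ B₂ := le_inf hlt₂.le le_normalizer
  -- a nilpotent subgroup containing both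
  have hex : ∃ L : Subgroup G, Group.IsNilpotent L ∧ B₁ ≤ L ∧ B₂ ≤ L := by
    by_cases hDK : D ⊓ fittingHallOf M = ⊥
    · obtain ⟨⟨x, hx⟩, hx1'⟩ := Subgroup.ne_bot_iff_exists_ne_one.mp hD1
      have hx1 : x ≠ 1 := fun h0 => hx1' (Subtype.ext h0)
      have key : ∀ B : Subgroup G, Group.IsNilpotent B → B ≤ M → D ≤ B →
          B ≤ centralizer ({x} : Set G) := by
        intro B hBn hBM hDB
        have hBK : B ⊓ fittingHallOf M = ⊥ := by
          by_contra h0
          have h1 := nil_le_kernel hG hCN M hM hBn hBM h0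
          apply hD1
          rw [← hDK]
          exact (inf_eq_left.2 (hDB.trans h1)).symm
        intro b hb
        rw [mem_centralizer_singleton_iff]
        have h1 : b * x * b⁻¹ * x⁻¹ ∈ B ⊓ fittingHallOf M :=
          ⟨B.mul_mem (B.mul_mem (B.mul_mem hb (hDB hx)) (B.inv_mem hb)) (B.inv_mem (hDB hx)),
            hcomm b (hBM hb) x (hBM (hDB hx))⟩
        rw [hBK, mem_bot] at h1
        calc b * x = (b * x * b⁻¹ * x⁻¹) * (x * b) := by group
          _ = x * b := by rw [h1, one_mul]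
      exact ⟨_, hCN x hx1, key B₁ hB₁n hB₁M hDB₁, key B₂ hB₂n hB₂M hDB₂⟩
    · have key : ∀ B : Subgroup G, Group.IsNilpotent B → B ≤ M → D ≤ B →
          B ≤ fittingHallOf M := by
        intro B hBn hBM hDB
        apply nil_le_kernel hG hCN M hM hBn hBM
        intro h0
        apply hDK
        rw [eq_bot_iff, ← h0]
        exact inf_le_inf_right _ hDB
      exact ⟨_, hKnil, key B₁ hB₁n hB₁M hDB₁, key B₂ hB₂n hB₂M hDB₂⟩
  obtain ⟨L, hL, hB₁L, hB₂L⟩ := hex
  obtain ⟨L', hLL', hL'n, hL'max⟩ := exists_max_nilpotent_ge hL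
  have hfin : ∀ (A : Subgroup G) (g : G), Group.IsNilpotent A →
      (∀ L : Subgroup G, Group.IsNilpotent L → A ≤ L → L = A) → D ≤ A → g ∈ A → g ∈ L' → g ∉ D →
      D ≤ L' → L' = A := by
    intro A g hAn hAm hDA hgA hgL hgD hDL
    by_contra hne'
    have hmem : L' ⊓ A ∈ S := by
      refine ⟨?_, L', A, hL'n, hL'max, hAn, hAm, hne', rfl⟩
      intro h0
      apply hD1
      rw [eq_bot_iff, ← h0]
      exact le_inf hDL hDA
    apply hmin _ hmem
    refine lt_of_le_of_ne (le_inf hDL hDA) fun h0 => hgD ?_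
    rw [h0]
    exact ⟨hgL, hgA⟩
  have hDL' : D ≤ L' := hDB₁.trans (hB₁L.trans hLL')
  have e₁ := hfin A₁ g₁ hA₁ hm₁ hlt₁.le hg₁A (hLL' (hB₁L ⟨hg₁A, hg₁N⟩)) hg₁D hDL'
  have e₂ := hfin A₂ g₂ hA₂ hm₂ hlt₂.le hg₂A (hLL' (hB₂L ⟨hg₂A, hg₂N⟩)) hg₂D hDL'
  exact hA (e₁.symm.trans e₂)

end Cfsg.Agent.Lib.Helper10
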