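import Mathlib
import Cfsg.Agent.Lib.Helper10.MinCN2

/-! Conjugates of maximal nilpotent subgroups. -/

set_option autoImplicit false
set_option linter.style.haveILetI false
set_option linter.unusedSectionVars false

namespace Cfsg.Agent.Lib.Helper10

open Cfsg Subgroup

universe u

variable {G : Type u} [Group G]

theorem map_conj_inv_map_conj (g : G) (X : Subgroup G) :
    (X.map (MulAut.conj g⁻¹).toMonoidHom).map (MulAut.conj g).toMonoidHom = X := by
  ext x
  constructor
  · rintro ⟨_, ⟨y, hy, rfl⟩, rfl⟩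
    simpa [MulAut.conj_apply, mul_assoc] using hy
  · intro hx
    exact ⟨g⁻¹ * x * g, ⟨x, hx, by simp [MulAut.conj_apply]⟩, by simp [MulAut.conj_apply, mul_assoc]⟩

theorem isNilpotent_map_conj {H : Subgroup G} (hH : Group.IsNilpotent H) (g : G) :
    Group.IsNilpotent (H.map (MulAut.conj g).toMonoidHom) :=
  Group.nilpotent_of_surjective ((MulAut.conj g).toMonoidHom.subgroupMap H)
    ((MulAut.conj g).toMonoidHom.subgroupMap_surjective H)

theorem max_nilpotent_conj {H : Subgroup G} (hH : Group.IsNilpotent H)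
    (hmax : ∀ L : Subgroup G, Group.IsNilpotent L → H ≤ L → L = H) (g : G) :
    Group.IsNilpotent (H.map (MulAut.conj g).toMonoidHom) ∧
      ∀ L : Subgroup G, Group.IsNilpotent L → H.map (MulAut.conj g).toMonoidHom ≤ L →
        L = H.map (MulAut.conj g).toMonoidHom := by
  refine ⟨isNilpotent_map_conj hH g, fun L hL hle => ?_⟩
  have h1 : H ≤ L.map (MulAut.conj g⁻¹).toMonoidHom := by
    intro h hh
    exact ⟨g * h * g⁻¹, hle ⟨h, hh, rfl⟩, by simp [MulAut.conj_apply, mul_assoc]⟩
  have h2 := hmax _ (isNilpotent_map_conj hL g⁻¹) h1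
  rw [← h2, map_conj_inv_map_conj]

end Cfsg.Agent.Lib.Helper10
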