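import Mathlib
import Cfsg.Agent.H1.Small2

set_option autoImplicit false
set_option linter.style.haveILetI false

namespace Cfsg.Agent.Lib.Helper10

open scoped commutatorElement

section nil

variable {Y : Type*} [Group Y] [Finite Y] [Group.IsNilpotent Y]

/-- the derived subgroup of a finite nilpotent group consists of non-generators -/
theorem eq_top_of_sup_commutator (T : Subgroup Y) (h : T ⊔ commutator Y = ⊤) : T = ⊤ := by
  by_contra hne
  obtain ⟨W, hW, hTW⟩ := (eq_top_or_exists_le_coatom T).resolve_left hne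
  haveI hn : W.Normal := Subgroup.NormalizerCondition.normal_of_coatom W (Group.normalizerCondition_of_isNilpotent (G := Y)) hW
  have hp := Cfsg.H1.index_prime_of_normal_coatom W hW
  have hc : commutator Y ≤ W := by
    haveI : Fact (Nat.card (Y ⧸ W)).Prime := ⟨by rw [← Subgroup.index_eq_card]; exact hp⟩
    have hcyc : IsCyclic (Y ⧸ W) := isCyclic_of_prime_card rfl
    rw [commutator_def, Subgroup.commutator_le]
    intro a _ b _
    rw [← QuotientGroup.eq_one_iff]
    have h1 : ((⁅a, b⁆ : Y) : Y ⧸ W) = ⁅(a : Y ⧸ W), (b : Y ⧸ W)⁆ :=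
      map_commutatorElement (QuotientGroup.mk' W) a b
    rw [h1, commutatorElement_eq_one_iff_mul_comm]
    exact hcyc.commGroup.mul_comm _ _
  exact hW.1 (top_le_iff.1 (h ▸ sup_le hTW hc))

theorem commutator_eq_bot_of_index_prime (hp : (commutator Y).index.Prime) : commutator Y = ⊥ := by
  have hne : commutator Y ≠ ⊤ := by
    intro h
    rw [h, Subgroup.index_top] at hp
    exact Nat.not_prime_one hp
  obtain ⟨y, -, hy⟩ := SetLike.exists_of_lt (lt_top_iff_ne_top.2 hne)
  have h1 : Subgroup.zpowers y ⊔ commutator Y = ⊤ := by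
    have hle : commutator Y ≤ Subgroup.zpowers y ⊔ commutator Y := le_sup_right
    have h2 := Subgroup.relIndex_mul_index hle
    rcases (Nat.dvd_prime hp).1 (Dvd.intro_left _ h2) with h3 | h3
    · exact Subgroup.index_eq_one.1 h3
    · exfalso
      rw [h3] at h2
      have h4 : (commutator Y).relIndex (Subgroup.zpowers y ⊔ commutator Y) = 1 := by
        have := Nat.eq_of_mul_eq_mul_right hp.pos (h2.trans (one_mul _).symm)
        exact this
      exact hy (Subgroup.relIndex_eq_one.1 h4 (Subgroup.mem_sup_left (Subgroup.mem_zpowers y)))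
  have h2 := eq_top_of_sup_commutator _ h1
  rw [commutator_def, eq_bot_iff, Subgroup.commutator_le]
  intro a _ b _
  have ha : a ∈ Subgroup.zpowers y := by rw [h2]; trivial
  have hb : b ∈ Subgroup.zpowers y := by rw [h2]; trivial
  obtain ⟨i, rfl⟩ := Subgroup.mem_zpowers_iff.1 ha
  obtain ⟨j, rfl⟩ := Subgroup.mem_zpowers_iff.1 hb
  rw [Subgroup.mem_bot, commutatorElement_eq_one_iff_commute]
  exact Commute.zpow_zpow_self y i j

theorem card_eq_pow_of_index_commutator {p j : ℕ} [Fact p.Prime]
    (h : (commutator Y).index = p ^ j) : ∃ k, Nat.card Y = p ^ k := by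
  obtain ⟨P⟩ : Nonempty (Sylow p Y) := inferInstance
  have h1 : (P : Subgroup Y) ⊔ commutator Y = ⊤ := by
    rw [← Subgroup.index_eq_one]
    have h2 : ((P : Subgroup Y) ⊔ commutator Y).index ∣ p ^ j := by
      rw [← h]; exact Subgroup.index_dvd_of_le le_sup_right
    obtain ⟨i, -, hi⟩ := (Nat.dvd_prime_pow Fact.out).1 h2
    rcases Nat.eq_zero_or_pos i with h3 | h3
    · rw [hi, h3, pow_zero]
    · exfalso
      apply P.not_dvd_index
      refine dvd_trans ?_ (Subgroup.index_dvd_of_le (le_sup_left : (P : Subgroup Y) ≤ _ ⊔ commutator Y))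
      rw [hi]; exact dvd_pow_self p h3.ne'
  have h2 := eq_top_of_sup_commutator _ h1
  obtain ⟨k, hk⟩ := IsPGroup.iff_card.1 P.2
  refine ⟨k, ?_⟩
  rw [← hk, h2, Subgroup.card_top]

end nil

section transfer

variable {L : Type*} [Group L] (K M : Subgroup L)

theorem comap_commutator_quotient [(M.subgroupOf K).Normal] (hMK : M ≤ K) :
    (commutator (K ⧸ M.subgroupOf K)).comap (QuotientGroup.mk' (M.subgroupOf K)) =
      (⁅K, K⁆ ⊔ M).subgroupOf K := by
  have h1 : commutator (K ⧸ M.subgroupOf K) =
      (commutator K).map (QuotientGroup.mk' (M.subgroupOf K)) := by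
    rw [commutator_def, commutator_def, Subgroup.map_commutator,
      ← MonoidHom.range_eq_map, MonoidHom.range_eq_top.2 (QuotientGroup.mk'_surjective _)]
  rw [h1, Subgroup.comap_map_eq, QuotientGroup.ker_mk']
  apply Subgroup.map_injective K.subtype_injective
  rw [Subgroup.map_sup, Subgroup.subgroupOf_map_subtype, Subgroup.subgroupOf_map_subtype,
    commutator_def, Subgroup.map_commutator, ← MonoidHom.range_eq_map, Subgroup.range_subtype,
    inf_eq_left.2 hMK, inf_eq_left.2 (sup_le (Subgroup.commutator_le_self K) hMK)]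

theorem index_commutator_quotient [(M.subgroupOf K).Normal] (hMK : M ≤ K) :
    (commutator (K ⧸ M.subgroupOf K)).index = (⁅K, K⁆ ⊔ M).relIndex K := by
  rw [← Subgroup.index_comap_of_surjective _ (QuotientGroup.mk'_surjective (M.subgroupOf K)),
    comap_commutator_quotient K M hMK]
  rfl

theorem commutator_le_of_commutator_quotient_eq_bot [(M.subgroupOf K).Normal]
    (h : commutator (K ⧸ M.subgroupOf K) = ⊥) : ⁅K, K⁆ ≤ M := by
  rw [Subgroup.commutator_le]
  intro a ha b hb
  have h1 : ⁅((⟨a, ha⟩ : K) : K ⧸ M.subgroupOf K), ((⟨b, hb⟩ : K) : K ⧸ M.subgroupOf K)⁆ ∈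
      commutator (K ⧸ M.subgroupOf K) :=
    Subgroup.commutator_mem_commutator (Subgroup.mem_top _) (Subgroup.mem_top _)
  rw [h, Subgroup.mem_bot] at h1
  have h2 : ((⁅(⟨a, ha⟩ : K), (⟨b, hb⟩ : K)⁆ : K) : K ⧸ M.subgroupOf K) = 1 := by
    rw [← h1]
    exact map_commutatorElement (QuotientGroup.mk' (M.subgroupOf K)) _ _
  exact Subgroup.mem_subgroupOf.1 ((QuotientGroup.eq_one_iff _).1 h2)

end transfer

end Cfsg.Agent.Lib.Helper10
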