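import Mathlib
import Cfsg.Agent.CharLib.Complete
import Cfsg.Agent.CharLib.Orth
import Cfsg.Agent.H25.Codeg
import Cfsg.Agent.H25.NormalSum

/-!
Irreducible characters of `M` not containing the normal subgroup `Q` in their kernel ("relevant" characters).
-/

set_option autoImplicit false

universe u

namespace Cfsg.Agent.Lib.Helper10

open Cfsg Cfsg.Agent.CharLib Cfsg.Agent.H25
open scoped ComplexConjugate

section

variable {M : Type u} [Group M] [Fintype M] (Q : Subgroup M)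

/-- `χ` is not constant on `Q` -/
def Rel (χ : M → ℂ) : Prop := ∃ x ∈ Q, χ x ≠ χ 1

variable [hQ : Q.Normal]

open Classical in
theorem sum_not_rel_sq :
    ∑ μ : IrrCharacter M, (if Rel Q μ then 0 else (μ : M → ℂ) 1 * (μ : M → ℂ) 1) = (Q.index : ℂ) := by
  rw [← sum_sq_of_le_ker Q]
  push_cast
  refine Finset.sum_congr rfl fun μ _ => ?_
  by_cases h : Rel Q μ
  · rw [if_pos h, if_neg]
    intro hle
    obtain ⟨x, hx, hne⟩ := h
    exact hne (hle hx)
  · rw [if_neg h, if_pos]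
    · rw [charDegree_irr μ]; ring
    · intro x hx
      by_contra hne
      exact h ⟨x, hx, hne⟩

open Classical in
theorem sum_rel_sq :
    ∑ μ : IrrCharacter M, (if Rel Q μ then (μ : M → ℂ) 1 * (μ : M → ℂ) 1 else 0) =
      (Nat.card M : ℂ) - (Q.index : ℂ) := by
  rw [← sum_not_rel_sq Q, ← sum_irr_sq (G := M), eq_sub_iff_add_eq, ← Finset.sum_add_distrib]
  refine Finset.sum_congr rfl fun μ _ => ?_
  split_ifs <;> ring

open Classical in
theorem sum_rel_mul {k : M} (hk : k ∈ Q) (hk1 : k ≠ 1) :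
    ∑ μ : IrrCharacter M, (if Rel Q μ then (μ : M → ℂ) 1 * (μ : M → ℂ) k else 0) = - (Q.index : ℂ) := by
  have h1 := sum_irr_one_mul (G := M) k
  rw [if_neg hk1] at h1
  rw [← sum_not_rel_sq Q, eq_neg_iff_add_eq_zero, ← Finset.sum_add_distrib]
  refine Eq.trans ?_ h1
  refine Finset.sum_congr rfl fun μ _ => ?_
  by_cases h : Rel Q μ
  · rw [if_pos h, if_pos h, add_zero]
  · rw [if_neg h, if_neg h, zero_add]
    have : (μ : M → ℂ) k = (μ : M → ℂ) 1 := by
      by_contra hne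
      exact h ⟨k, hk, hne⟩
    rw [this]

open Classical in
/-- a class function whose multiplicities on the relevant characters are proportional to the degrees is constant
on `Q \ {1}` -/
theorem value_of_prop {φ : M → ℂ} (hφ : IsClassFunction M φ) (t : ℂ)
    (ht : ∀ ξ : IrrCharacter M, Rel Q ξ → classInner φ ξ = t * (ξ : M → ℂ) 1) {k : M} (hk : k ∈ Q) (hk1 : k ≠ 1) :
    φ k = ∑ μ : IrrCharacter M, (if Rel Q μ then 0 else classInner φ μ * (μ : M → ℂ) 1) - t * (Q.index : ℂ) := by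
  have h1 := congrFun (classFunction_eq_sum hφ) k
  rw [Finset.sum_apply] at h1
  have h2 : t * (Q.index : ℂ) = - ∑ μ : IrrCharacter M, (if Rel Q μ then t * ((μ : M → ℂ) 1 * (μ : M → ℂ) k) else 0) := by
    have h3 := sum_rel_mul Q hk hk1
    have h4 : ∑ μ : IrrCharacter M, (if Rel Q μ then t * ((μ : M → ℂ) 1 * (μ : M → ℂ) k) else 0) =
        t * ∑ μ : IrrCharacter M, (if Rel Q μ then (μ : M → ℂ) 1 * (μ : M → ℂ) k else 0) := by
      rw [Finset.mul_sum]
      refine Finset.sum_congr rfl fun μ _ => ?_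
      split_ifs <;> ring
    rw [h4, h3]; ring
  rw [h2, sub_neg_eq_add, ← Finset.sum_add_distrib, h1]
  refine Finset.sum_congr rfl fun μ _ => ?_
  rw [Pi.smul_apply, smul_eq_mul]
  by_cases h : Rel Q μ
  · rw [if_pos h, if_pos h, ht μ h]; ring
  · rw [if_neg h, if_neg h, add_zero]
    have : (μ : M → ℂ) k = (μ : M → ℂ) 1 := by
      by_contra hne
      exact h ⟨k, hk, hne⟩
    rw [this]

open Classical in
theorem sum_rel_eq_zero {ξ : M → ℂ} (hξ : IsIrrCharacter M ξ) (h : Rel Q ξ) :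
    ∑ x : M, (if x ∈ Q then ξ x else 0) = 0 := by
  have := sum_coset_eq_zero Q ⟨ξ, hξ⟩ h 1
  simpa using this

/-- an integrality criterion -/
theorem int_of_rel (d : IrrCharacter M → ℕ)
    (hd : ∀ ξ : IrrCharacter M, Rel Q ξ → (ξ : M → ℂ) 1 = (Q.index : ℂ) * d ξ ∧ d ξ ∣ Nat.card Q)
    (hne : ∃ ξ : IrrCharacter M, Rel Q ξ) (r : ℂ)
    (hr : ∀ ξ : IrrCharacter M, Rel Q ξ → ∃ z : ℤ, r * d ξ = z) : ∃ z : ℤ, r = z := by
  classical
  have he0 : (Q.index : ℂ) ≠ 0 := by exact_mod_cast Subgroup.index_ne_zero_of_finite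
  have h1 := sum_rel_sq Q
  have hcard : (Nat.card M : ℂ) = (Nat.card Q : ℂ) * (Q.index : ℂ) := by exact_mod_cast Q.card_mul_index.symm
  have h2 : ∑ μ : IrrCharacter M, (if Rel Q μ then (Q.index : ℂ) * ((d μ : ℂ) * d μ) else 0) = (Nat.card Q : ℂ) - 1 := by
    apply mul_left_cancel₀ he0
    rw [Finset.mul_sum]
    have : (Q.index : ℂ) * ((Nat.card Q : ℂ) - 1) = (Nat.card M : ℂ) - (Q.index : ℂ) := by rw [hcard]; ring
    rw [this, ← h1]
    refine Finset.sum_congr rfl fun μ _ => ?_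
    by_cases h : Rel Q μ
    · rw [if_pos h, if_pos h, (hd μ h).1]; ring
    · rw [if_neg h, if_neg h, mul_zero]
  have hr' : ∀ ξ : IrrCharacter M, ∃ z : ℤ, Rel Q ξ → r * d ξ = z := by
    intro ξ
    by_cases h : Rel Q ξ
    · obtain ⟨z, hz⟩ := hr ξ h
      exact ⟨z, fun _ => hz⟩
    · exact ⟨0, fun h' => absurd h' h⟩
  choose z hz using hr'
  have h3 : r * ((Nat.card Q : ℂ) - 1) =
      ((∑ μ : IrrCharacter M, (if Rel Q μ then (Q.index : ℤ) * (z μ * d μ) else 0) : ℤ) : ℂ) := by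
    rw [← h2, Finset.mul_sum]
    push_cast
    refine Finset.sum_congr rfl fun μ _ => ?_
    by_cases h : Rel Q μ
    · rw [if_pos h, if_pos h, ← hz μ h]; ring
    · rw [if_neg h, if_neg h, mul_zero]
  obtain ⟨ξ₀, hξ₀⟩ := hne
  obtain ⟨c, hc⟩ := (hd ξ₀ hξ₀).2
  have h4 : r * (Nat.card Q : ℂ) = ((z ξ₀ * c : ℤ) : ℂ) := by
    rw [hc]; push_cast
    rw [← hz ξ₀ hξ₀]; ring
  refine ⟨z ξ₀ * c - ∑ μ : IrrCharacter M, (if Rel Q μ then (Q.index : ℤ) * (z μ * d μ) else 0), ?_⟩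
  rw [Int.cast_sub, ← h3, ← h4]; ring

end

end Cfsg.Agent.Lib.Helper10
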