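import Mathlib
import Cfsg.Prelude.Def_Characters
import Cfsg.Prelude.Def_Transfer
import Cfsg.Agent.Lib.Helper10.CentSec
import Cfsg.Agent.Lib.Helper10.LinTwist
import Cfsg.Agent.Lib.Helper10.RelChar
import Cfsg.Agent.Lib.Helper10.NilFrat
import Cfsg.Agent.Lib.Helper13.NilMax
import Cfsg.Agent.Lib.Helper23.CharDeg2
import Cfsg.Agent.H25.CentralDefect2
import Cfsg.Agent.H1.Kegel1

set_option autoImplicit false
set_option linter.style.haveILetI false

namespace Cfsg.Agent.Lib.Helper10

open Cfsg Cfsg.Agent.CharLib Cfsg.Agent.Lib.Helper23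
open scoped ComplexConjugate commutatorElement

universe u

variable {G : Type u} [Group G] [Fintype G]

theorem isPGroup_of_unique_dvd [Group.IsNilpotent G] (p : ℕ) [Fact p.Prime]
    (χ₀ : IrrCharacter G) (h0 : p ∣ charDegree (χ₀ : G → ℂ))
    (huniq : ∀ χ : IrrCharacter G, p ∣ charDegree (χ : G → ℂ) → χ = χ₀) : IsPGroup p G := by
  classical
  have hp : p.Prime := Fact.out
  obtain ⟨P, N, hNn, hc⟩ := Cfsg.Agent.Lib.Helper13.npc_of_nilpotent (M := G) p
  have hcard := hc.card_mul_card
  have hidx := hc.index_eq_card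
  have hNp : ¬ p ∣ Nat.card N := by rw [← hidx]; exact P.not_dvd_index
  obtain ⟨a, ha⟩ := IsPGroup.iff_card.1 P.2
  have hdec : ∀ g : G, ∃ n ∈ N, ∃ x ∈ (P : Subgroup G), g = n * x := by
    intro g
    obtain ⟨⟨n, x⟩, hx, -⟩ := Subgroup.IsComplement.existsUnique hc g
    exact ⟨n, n.2, x, x.2, hx.symm⟩
  have hcomm : ∀ n ∈ N, ∀ x ∈ (P : Subgroup G), n * x = x * n := by
    intro n hn x hx
    apply Cfsg.H1.commute_of_coprime_of_nilpotent G n x
    obtain ⟨k, hk⟩ := (IsPGroup.iff_orderOf.mp P.2) ⟨x, hx⟩
    rw [Subgroup.orderOf_mk] at hk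
    rw [hk]
    apply Nat.Coprime.pow_right
    have h1 : orderOf n ∣ Nat.card N := by
      have := orderOf_dvd_natCard (⟨n, hn⟩ : N)
      rwa [Subgroup.orderOf_mk] at this
    exact Nat.Coprime.coprime_dvd_left h1 ((Nat.Prime.coprime_iff_not_dvd hp).2 hNp).symm
  have hQcard : Nat.card (G ⧸ N) = p ^ a := by
    rw [← Subgroup.index_eq_card]
    have h1 := Subgroup.card_mul_index N
    rw [← hcard, ha] at h1
    exact Nat.eq_of_mul_eq_mul_left Nat.card_pos h1
  -- Claim A
  have hA : ∃ ψ : IrrCharacter (G ⧸ N), p ∣ charDegree (ψ : G ⧸ N → ℂ) := by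
    by_contra hcon
    push Not at hcon
    have hlin : ∀ ψ : IrrCharacter (G ⧸ N), (ψ : G ⧸ N → ℂ) 1 = 1 := by
      intro ψ
      have h1 := charDegree_dvd_card ψ
      rw [hQcard] at h1
      obtain ⟨i, -, hi⟩ := (Nat.dvd_prime_pow hp).1 h1
      rcases Nat.eq_zero_or_pos i with h2 | h2
      · rw [h2, pow_zero] at hi
        exact apply_one_of_charDegree_eq_one ψ hi
      · exact absurd (hi ▸ dvd_pow_self p h2.ne') (hcon ψ)
    have hab := comm_of_all_linear hlin
    have hPc : (P : Subgroup G) ≤ Subgroup.center G := by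
      intro x hx
      rw [Subgroup.mem_center_iff]
      intro g
      obtain ⟨n, hn, y, hy, rfl⟩ := hdec g
      have h1 : y * x = x * y := by
        have h2 : y * x * y⁻¹ * x⁻¹ ∈ N := by
          rw [← QuotientGroup.eq_one_iff]
          have h3 := hab (y : G ⧸ N) (x : G ⧸ N)
          rw [QuotientGroup.mk_mul, QuotientGroup.mk_mul, QuotientGroup.mk_mul, QuotientGroup.mk_inv,
            QuotientGroup.mk_inv, h3]
          group
        have h3 : y * x * y⁻¹ * x⁻¹ ∈ (P : Subgroup G) :=
          (P : Subgroup G).mul_mem ((P : Subgroup G).mul_mem ((P : Subgroup G).mul_mem hy hx)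
            ((P : Subgroup G).inv_mem hy)) ((P : Subgroup G).inv_mem hx)
        have h4 := Subgroup.disjoint_def.1 hc.disjoint h2 h3
        have : y * x = (y * x * y⁻¹ * x⁻¹) * (x * y) := by group
        rw [this, h4, one_mul]
      rw [mul_assoc, h1, ← mul_assoc, hcomm n hn x hx, mul_assoc]
    exact P.not_dvd_index (h0.trans (Cfsg.Agent.H25.charDegree_dvd_index_of_le_center χ₀ hPc))
  obtain ⟨ψ, hψ⟩ := hA
  have hker : ∀ n ∈ N, (χ₀ : G → ℂ) n = (χ₀ : G → ℂ) 1 := by
    intro n hn
    have h1 := huniq ⟨fun g => (ψ : G ⧸ N → ℂ) (QuotientGroup.mk' N g),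
      isIrrCharacter_comp_of_surjective ψ.2 (QuotientGroup.mk' N) (QuotientGroup.mk'_surjective N)⟩ hψ
    rw [← h1]
    show (ψ : G ⧸ N → ℂ) (QuotientGroup.mk' N n) = (ψ : G ⧸ N → ℂ) (QuotientGroup.mk' N 1)
    have h2 : QuotientGroup.mk' N n = 1 := (QuotientGroup.eq_one_iff n).2 hn
    rw [map_one, h2]
  -- Claim B
  have hB : N = ⊥ := by
    by_contra hne
    have hPtop : (P : Subgroup G) ≠ ⊤ := by
      intro h
      apply hne
      apply Subgroup.eq_bot_of_card_eq
      rw [← hidx, h, Subgroup.index_top]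
    haveI : Nontrivial (G ⧸ (P : Subgroup G)) := QuotientGroup.nontrivial_iff.2 hPtop
    obtain ⟨q, -, hq⟩ := SetLike.exists_of_lt
      (Group.IsSolvable.commutator_lt_top_of_nontrivial (G ⧸ (P : Subgroup G)))
    obtain ⟨l, hl⟩ := exists_hom_ne_one_of_notMem_commutator hq
    obtain ⟨g, rfl⟩ := QuotientGroup.mk_surjective q
    obtain ⟨n, hn, x, hx, rfl⟩ := hdec g
    set lam : G →* ℂˣ := l.comp (QuotientGroup.mk' (P : Subgroup G)) with hlam
    have h1 : lam x = 1 := by
      show l (QuotientGroup.mk' (P : Subgroup G) x) = 1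
      have h2 : QuotientGroup.mk' (P : Subgroup G) x = 1 := (QuotientGroup.eq_one_iff x).2 hx
      rw [h2, map_one]
    have h2 : lam n ≠ 1 := by
      intro h
      apply hl
      have : lam (n * x) = 1 := by rw [map_mul, h, h1, one_mul]
      exact this
    have h3 := huniq (ltw lam χ₀) (by rw [charDegree_ltw]; exact h0)
    have h4 := congrFun (congrArg Subtype.val h3) n
    rw [ltw_apply, hker n hn] at h4
    apply h2
    apply Units.ext
    exact mul_right_cancel₀ (irr_apply_one_ne_zero χ₀) (h4.trans (one_mul _).symm)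
  apply IsPGroup.of_card (n := a)
  rw [← hcard, hB, Subgroup.card_bot, one_mul, ha]

theorem extraspecial_of_unique_nonlinear (p : ℕ) [Fact p.Prime] (hG : IsPGroup p G)
    (χ₀ : IrrCharacter G) (h0 : p ∣ charDegree (χ₀ : G → ℂ))
    (huniq : ∀ χ : IrrCharacter G, p ∣ charDegree (χ : G → ℂ) → χ = χ₀) :
    p = 2 ∧ IsExtraspecial 2 G := by
  classical
  have hp : p.Prime := Fact.out
  obtain ⟨a, ha⟩ := IsPGroup.iff_card.1 hG
  have hcd0 : charDegree (χ₀ : G → ℂ) ≠ 0 := by
    intro h
    have := charDegree_cast_irr χ₀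
    rw [h] at this
    exact irr_apply_one_ne_zero χ₀ (by simpa using this.symm)
  have hmemc : ∀ x y : G, x * y * x⁻¹ * y⁻¹ ∈ commutator G := by
    intro x y
    have := Subgroup.commutator_mem_commutator (Subgroup.mem_top x) (Subgroup.mem_top y)
    rwa [commutatorElement_def] at this
  have hrel : ∀ μ : IrrCharacter G, Rel (commutator G) (μ : G → ℂ) ↔ μ = χ₀ := by
    intro μ
    constructor
    · intro h
      by_contra hne
      have h1 : ¬ p ∣ charDegree (μ : G → ℂ) := fun h' => hne (huniq μ h')
      have h2 : charDegree (μ : G → ℂ) = 1 := by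
        have h3 := charDegree_dvd_card μ
        rw [ha] at h3
        obtain ⟨i, -, hi⟩ := (Nat.dvd_prime_pow hp).1 h3
        rcases Nat.eq_zero_or_pos i with h4 | h4
        · rw [hi, h4, pow_zero]
        · exact absurd (hi ▸ dvd_pow_self p h4.ne') h1
      have h3 := apply_one_of_charDegree_eq_one μ h2
      obtain ⟨x, hx, hxne⟩ := h
      apply hxne
      have h4 := hom_eq_one_of_mem_commutator (homOfLin μ h3) hx
      have h5 : (μ : G → ℂ) x = 1 := by
        rw [← homOfLin_apply μ h3, h4]; rfl
      rw [h5, h3]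
    · rintro rfl
      by_contra hnr
      have h1 := charDegree_sq_mul_card_le μ ⊤ (by
        intro d _ a
        by_contra hne
        exact hnr ⟨_, hmemc a d, hne⟩)
      rw [Subgroup.card_top] at h1
      have h2 : charDegree (μ : G → ℂ) ^ 2 ≤ 1 :=
        Nat.le_of_mul_le_mul_right (by rwa [one_mul]) Nat.card_pos
      have h3 : charDegree (μ : G → ℂ) = 1 := by nlinarith [Nat.pos_of_ne_zero hcd0]
      rw [h3] at h0
      exact hp.one_lt.ne' (Nat.dvd_one.1 h0)
  have hsum := sum_rel_sq (commutator G)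
  rw [Finset.sum_eq_single χ₀ (fun μ _ hne => if_neg (fun h => hne ((hrel μ).1 h)))
    (fun h => absurd (Finset.mem_univ _) h), if_pos ((hrel χ₀).2 rfl), ← charDegree_cast_irr χ₀] at hsum
  have hcd : charDegree (χ₀ : G → ℂ) ^ 2 + (commutator G).index = Nat.card G := by
    have : ((charDegree (χ₀ : G → ℂ) ^ 2 + (commutator G).index : ℕ) : ℂ) = ((Nat.card G : ℕ) : ℂ) := by
      push_cast
      rw [sq, hsum]; ring
    exact_mod_cast this
  have hmi := Subgroup.card_mul_index (commutator G)
  obtain ⟨c, -, hc⟩ := (Nat.dvd_prime_pow hp).1 (ha ▸ charDegree_dvd_card χ₀)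
  obtain ⟨k, -, hk⟩ := (Nat.dvd_prime_pow hp).1 (ha ▸ Subgroup.card_subgroup_dvd_card (commutator G))
  have hidx0 : 0 < (commutator G).index := Nat.pos_of_ne_zero Subgroup.index_ne_zero_of_finite
  have hm1 : charDegree (χ₀ : G → ℂ) ^ 2 = (Nat.card (commutator G) - 1) * (commutator G).index := by
    have hpos : 0 < Nat.card (commutator G) := Nat.card_pos
    obtain ⟨m', hm'⟩ : ∃ m', Nat.card (commutator G) = m' + 1 := ⟨_, (Nat.succ_pred_eq_of_pos hpos).symm⟩
    rw [hm'] at hmi ⊢
    simp only [Nat.add_sub_cancel]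
    have : (m' + 1) * (commutator G).index = m' * (commutator G).index + (commutator G).index := by ring
    omega
  have hm2 : Nat.card (commutator G) = 2 := by
    have h1 : (Nat.card (commutator G) - 1) ∣ p ^ (2 * c) := by
      rw [pow_mul', ← hc, hm1]; exact Dvd.intro _ rfl
    obtain ⟨j, -, hj⟩ := (Nat.dvd_prime_pow hp).1 h1
    rcases Nat.eq_zero_or_pos j with h2 | h2
    · rw [h2, pow_zero] at hj; omega
    · exfalso
      have h3 : p ∣ Nat.card (commutator G) - 1 := hj ▸ dvd_pow_self p h2.ne'
      have h4 : 1 < Nat.card (commutator G) := by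
        have := Nat.le_of_dvd (by
          rcases Nat.eq_zero_or_pos (Nat.card (commutator G) - 1) with h5 | h5
          · rw [h5, zero_mul] at hm1
            exact absurd (pow_eq_zero_iff (two_ne_zero)|>.1 hm1) hcd0
          · exact h5) h3
        have := hp.two_le
        omega
      have h5 : p ∣ Nat.card (commutator G) := by
        rw [hk]
        apply dvd_pow_self
        rintro rfl
        rw [pow_zero] at hk; omega
      have h6 := (Nat.dvd_sub h5 h3)
      have h7 : Nat.card (commutator G) - (Nat.card (commutator G) - 1) = 1 := by omega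
      rw [h7] at h6
      exact hp.one_lt.ne' (Nat.dvd_one.1 h6)
  have hp2 : p = 2 := by
    rw [hm2] at hk
    have h1 : p ∣ 2 := by
      rw [hk]
      apply dvd_pow_self
      rintro rfl
      simp at hk
    exact (Nat.prime_dvd_prime_iff_eq hp Nat.prime_two).1 h1
  subst hp2
  refine ⟨rfl, ?_⟩
  haveI := hG.isNilpotent
  obtain ⟨c₀, hc₀, huc⟩ := (Nat.card_eq_two_iff' (1 : commutator G)).1 hm2
  have hcz : commutator G ≤ Subgroup.center G := by
    intro x hx
    rw [Subgroup.mem_center_iff]
    intro g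
    by_cases hx1 : x = 1
    · rw [hx1]; simp
    · have h1 : (⟨x, hx⟩ : commutator G) = c₀ := huc _ (fun h => hx1 (congrArg Subtype.val h))
      have h2 : (⟨g * x * g⁻¹, Subgroup.Normal.conj_mem inferInstance x hx g⟩ : commutator G) = c₀ :=
        huc _ (fun h => hx1 (by
          have h3 : g * x * g⁻¹ = 1 := congrArg Subtype.val h
          have : x = g⁻¹ * (g * x * g⁻¹) * g := by group
          rw [this, h3]; group))
      have h3 : g * x * g⁻¹ = x := congrArg Subtype.val (h2.trans h1.symm)
      calc g * x = (g * x * g⁻¹) * g := by group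
        _ = x * g := by rw [h3]
  have hzcard : Nat.card (Subgroup.center G) ≤ 2 := by
    have h1 := charDegree_sq_mul_card_le χ₀ (Subgroup.center G) (by
      intro d hd a
      have : a * d * a⁻¹ * d⁻¹ = 1 := by
        rw [Subgroup.mem_center_iff.1 hd a]; group
      rw [this])
    rw [hm1, hm2, ← hmi, hm2] at h1
    have h2 : (commutator G).index * Nat.card (Subgroup.center G) ≤ (commutator G).index * 2 := by
      calc (commutator G).index * Nat.card (Subgroup.center G)
          = (2 - 1) * (commutator G).index * Nat.card (Subgroup.center G) := by norm_num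
        _ ≤ 2 * (commutator G).index := h1
        _ = _ := by ring
    exact Nat.le_of_mul_le_mul_left h2 hidx0
  have hZ : commutator G = Subgroup.center G :=
    Subgroup.eq_of_le_of_card_ge hcz (by rw [hm2]; exact hzcard)
  have hsq : ∀ x ∈ commutator G, x * x = 1 := by
    intro x hx
    have h1 := pow_card_eq_one' (x := (⟨x, hx⟩ : commutator G))
    rw [hm2, sq] at h1
    exact congrArg Subtype.val h1
  have hsqc : ∀ x : G, x * x ∈ commutator G := by
    intro x
    rw [hZ, Subgroup.mem_center_iff]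
    intro y
    have hc1 := hmemc x y
    have hc2 := Subgroup.mem_center_iff.1 (hcz hc1)
    have hc3 := hsq _ hc1
    set z := x * y * x⁻¹ * y⁻¹ with hz
    have e1 : x * y = z * (y * x) := by rw [hz]; group
    symm
    calc x * x * y = x * (x * y) := by group
      _ = x * (z * (y * x)) := by rw [e1]
      _ = (x * z) * (y * x) := by group
      _ = (z * x) * (y * x) := by rw [hc2 x]
      _ = z * (x * y) * x := by group
      _ = z * (z * (y * x)) * x := by rw [e1]
      _ = (z * z) * (y * (x * x)) := by group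
      _ = y * (x * x) := by rw [hc3, one_mul]
  refine ⟨⟨hG, ?_, hZ⟩, by rw [← hZ, hm2]⟩
  apply le_antisymm
  · intro g hg
    by_contra hgZ
    rw [← hZ] at hgZ
    obtain ⟨l, hl⟩ := exists_hom_ne_one_of_notMem_commutator hgZ
    have hl2 : ∀ x : G, l x * l x = 1 := by
      intro x
      rw [← map_mul]
      exact hom_eq_one_of_mem_commutator l (hsqc x)
    have key : ∀ u : ℂˣ, u * u = 1 → u ≠ 1 → u = -1 := by
      intro u hu hu1
      have h1 : (u : ℂ) * (u : ℂ) = 1 := by
        rw [← Units.val_mul, hu, Units.val_one]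
      rcases mul_self_eq_one_iff.1 h1 with h2 | h2
      · exact absurd (Units.ext h2) hu1
      · exact Units.ext (by simpa using h2)
    have hco : IsCoatom l.ker := by
      refine ⟨fun h => hl (by
        have : g ∈ l.ker := by rw [h]; trivial
        exact this), ?_⟩
      intro H hH
      obtain ⟨h, hhH, hhk⟩ := SetLike.exists_of_lt hH
      rw [eq_top_iff]
      intro x _
      by_cases hx : l x = 1
      · exact hH.le hx
      · have h1 := key _ (hl2 x) hx
        have h2 := key _ (hl2 h) hhk
        have h3 : x * h ∈ l.ker := by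
          show l (x * h) = 1
          rw [map_mul, h1, h2]; simp
        have := H.mul_mem (hH.le h3) (H.inv_mem hhH)
        rwa [mul_inv_cancel_right] at this
    exact hl (frattini_le_coatom hco hg)
  · rw [← hZ]
    show _ ≤ ⨅ a ∈ {H : Subgroup G | IsCoatom H}, a
    refine le_iInf₂ (fun W hW => ?_)
    by_contra hle
    have hW' : IsCoatom W := hW
    have h1 : W < W ⊔ commutator G := by
      refine lt_of_le_of_ne le_sup_left (fun h => hle ?_)
      rw [h]; exact le_sup_right
    exact hW'.1 (eq_top_of_sup_commutator W (hW'.2 _ h1))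

end Cfsg.Agent.Lib.Helper10
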