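import Mathlib

set_option autoImplicit false

namespace Cfsg.Agent.Lib.Helper10

section abstract

variable {G : Type*} [Group G]

theorem twisted_fixed_iff {Z : Type*} [MulAction G Z] (σ : Z → Z) (hσ : ∀ z, σ (σ z) = z)
    (hc : ∀ (g : G) z, σ (g • z) = g • σ z)
    {m : ℕ} (hm : Odd m) (hK : ∀ (g : G) (z : Z), g ^ m • z = z) (g : G) (z : Z) :
    σ (g • z) = z ↔ (σ z = z ∧ g • z = z) := by
  constructor
  · intro h
    have h1 : g • z = σ z := by
      have := congrArg σ h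
      rwa [hσ] at this
    have h2 : g ^ 2 • z = z := by rw [pow_two, mul_smul, h1, ← hc, h]
    have h3 : ∀ j : ℕ, (g ^ 2) ^ j • z = z := by
      intro j
      induction j with
      | zero => simp
      | succ j ih => rw [pow_succ, mul_smul, h2, ih]
    obtain ⟨j, rfl⟩ := hm
    have h4 : g • z = z := by
      have := hK g z
      rwa [pow_succ', pow_mul, mul_smul, h3] at this
    exact ⟨by rw [← h1, h4], h4⟩
  · rintro ⟨h1, h2⟩
    rw [h2, h1]

theorem card_orbits_eq_of_fixedBy {X Y : Type*} [Finite G] [Finite X] [Finite Y] [MulAction G X]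
    [MulAction G Y]
    (h : ∀ g : G, Nat.card (MulAction.fixedBy X g) = Nat.card (MulAction.fixedBy Y g)) :
    Nat.card (Quotient (MulAction.orbitRel G X)) = Nat.card (Quotient (MulAction.orbitRel G Y)) := by
  classical
  cases nonempty_fintype G
  cases nonempty_fintype X
  cases nonempty_fintype Y
  have h1 := MulAction.sum_card_fixedBy_eq_card_orbits_mul_card_group G X
  have h2 := MulAction.sum_card_fixedBy_eq_card_orbits_mul_card_group G Y
  have h3 : ∑ a : G, Fintype.card (MulAction.fixedBy X a) = ∑ a : G, Fintype.card (MulAction.fixedBy Y a) := by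
    apply Finset.sum_congr rfl
    intro g _
    rw [← Nat.card_eq_fintype_card, ← Nat.card_eq_fintype_card, h g]
  rw [h1, h2] at h3
  rw [Nat.card_eq_fintype_card, Nat.card_eq_fintype_card]
  exact Nat.eq_of_mul_eq_mul_right Fintype.card_pos h3

/-- the action on the fixed points of a commuting map -/
@[instance_reducible] def fixAct {Z : Type*} [MulAction G Z] (σ : Z → Z)
    (hc : ∀ (g : G) z, σ (g • z) = g • σ z) : MulAction G {z : Z // σ z = z} where
  smul g z := ⟨g • z.1, by rw [hc, z.2]⟩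
  one_smul z := Subtype.ext (one_smul _ _)
  mul_smul g h z := Subtype.ext (mul_smul _ _ _)

theorem card_quot_fixAct {Z : Type*} [MulAction G Z] (σ : Z → Z)
    (hc : ∀ (g : G) z, σ (g • z) = g • σ z) :
    Nat.card (Quot (fun x y : {z : Z // σ z = z} => ∃ g : G, g • x.1 = y.1)) =
      Nat.card (Quotient (@MulAction.orbitRel G {z : Z // σ z = z} _ (fixAct σ hc))) := by
  letI := fixAct σ hc
  refine Nat.card_congr (Quot.congrRight (fun x y => ?_))
  show _ ↔ x ∈ MulAction.orbit G y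
  rw [MulAction.mem_orbit_iff]
  constructor
  · rintro ⟨g, hg⟩
    refine ⟨g⁻¹, Subtype.ext ?_⟩
    show g⁻¹ • y.1 = x.1
    rw [← hg, inv_smul_smul]
  · rintro ⟨g, hg⟩
    refine ⟨g⁻¹, ?_⟩
    have : g • y.1 = x.1 := congrArg Subtype.val hg
    rw [← this, inv_smul_smul]

theorem card_fixedBy_fixAct {Z : Type*} [MulAction G Z] (σ : Z → Z) (hσ : ∀ z, σ (σ z) = z)
    (hc : ∀ (g : G) z, σ (g • z) = g • σ z)
    {m : ℕ} (hm : Odd m) (hK : ∀ (g : G) (z : Z), g ^ m • z = z) (g : G) :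
    Nat.card (@MulAction.fixedBy G {z : Z // σ z = z} _ (fixAct σ hc) g) =
      Nat.card {z : Z // σ (g • z) = z} := by
  letI := fixAct σ hc
  refine Nat.card_congr
    { toFun := fun x => ⟨x.1.1, (twisted_fixed_iff σ hσ hc hm hK g x.1.1).2
        ⟨x.1.2, congrArg Subtype.val x.2⟩⟩
      invFun := fun z => ⟨⟨z.1, ((twisted_fixed_iff σ hσ hc hm hK g z.1).1 z.2).1⟩,
        Subtype.ext ((twisted_fixed_iff σ hσ hc hm hK g z.1).1 z.2).2⟩
      left_inv := fun x => rfl
      right_inv := fun z => rfl }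

theorem card_quot_fixed_eq [Finite G] {Z₁ Z₂ : Type*} [Finite Z₁] [Finite Z₂] [MulAction G Z₁]
    [MulAction G Z₂] (σ₁ : Z₁ → Z₁) (σ₂ : Z₂ → Z₂) (hσ₁ : ∀ z, σ₁ (σ₁ z) = z)
    (hσ₂ : ∀ z, σ₂ (σ₂ z) = z) (hc₁ : ∀ (g : G) z, σ₁ (g • z) = g • σ₁ z)
    (hc₂ : ∀ (g : G) z, σ₂ (g • z) = g • σ₂ z) {m : ℕ} (hm : Odd m)
    (hK₁ : ∀ (g : G) (z : Z₁), g ^ m • z = z) (hK₂ : ∀ (g : G) (z : Z₂), g ^ m • z = z)
    (h : ∀ g : G, Nat.card {z : Z₁ // σ₁ (g • z) = z} = Nat.card {z : Z₂ // σ₂ (g⁻¹ • z) = z}) :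
    Nat.card (Quot (fun x y : {z : Z₁ // σ₁ z = z} => ∃ g : G, g • x.1 = y.1)) =
      Nat.card (Quot (fun x y : {z : Z₂ // σ₂ z = z} => ∃ g : G, g • x.1 = y.1)) := by
  rw [card_quot_fixAct σ₁ hc₁, card_quot_fixAct σ₂ hc₂]
  letI := fixAct σ₁ hc₁
  letI := fixAct σ₂ hc₂
  apply card_orbits_eq_of_fixedBy
  intro g
  rw [card_fixedBy_fixAct σ₁ hσ₁ hc₁ hm hK₁ g, card_fixedBy_fixAct σ₂ hσ₂ hc₂ hm hK₂ g, h g]
  refine Nat.card_congr (Equiv.subtypeEquivRight (fun z => ?_))
  rw [twisted_fixed_iff σ₂ hσ₂ hc₂ hm hK₂, twisted_fixed_iff σ₂ hσ₂ hc₂ hm hK₂, inv_smul_eq_iff]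
  constructor
  · rintro ⟨h1, h2⟩; exact ⟨h1, h2.symm⟩
  · rintro ⟨h1, h2⟩; exact ⟨h1, h2.symm⟩

theorem card_quot_eq_of_surjective {α β : Type*} {r : α → α → Prop} {s : β → β → Prop}
    (hs : Equivalence s) (f : α → β) (hf : Function.Surjective f)
    (h : ∀ a b, r a b ↔ s (f a) (f b)) :
    Nat.card (Quot r) = Nat.card (Quot s) := by
  apply Nat.card_eq_of_bijective (Quot.map f (fun a b hab => (h a b).1 hab))
  constructor
  · rintro ⟨a⟩ ⟨b⟩ hab
    have h1 : Quot.mk s (f a) = Quot.mk s (f b) := hab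
    have h2 : s (f a) (f b) := by
      have := Quot.eqvGen_exact h1
      rwa [hs.eqvGen_iff] at this
    exact Quot.sound ((h a b).2 h2)
  · rintro ⟨b⟩
    obtain ⟨a, rfl⟩ := hf b
    exact ⟨Quot.mk r a, rfl⟩

end abstract

section classes

variable {G : Type*} [Group G] (K : Subgroup G) [K.Normal]

/-- the conjugation action on the classes of a normal subgroup -/
@[instance_reducible] def classAct : MulAction G (ConjClasses K) where
  smul g C := ConjClasses.map (MulAut.conjNormal g : K ≃* K).toMonoidHom C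
  one_smul C := by
    obtain ⟨k, rfl⟩ := ConjClasses.mk_surjective C
    show ConjClasses.mk ((MulAut.conjNormal (1 : G) : K ≃* K) k) = _
    rw [map_one]; rfl
  mul_smul g h C := by
    obtain ⟨k, rfl⟩ := ConjClasses.mk_surjective C
    show ConjClasses.mk ((MulAut.conjNormal (g * h) : K ≃* K) k) =
      ConjClasses.mk ((MulAut.conjNormal g : K ≃* K) ((MulAut.conjNormal h : K ≃* K) k))
    rw [map_mul]; rfl

/-- inversion of classes -/
def classInv {H : Type*} [Group H] : ConjClasses H → ConjClasses H :=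
  Quotient.map (fun k => k⁻¹) (fun a b h => by
    obtain ⟨c, hc⟩ := isConj_iff.1 h
    exact isConj_iff.2 ⟨c, by rw [← hc]; group⟩)

theorem classInv_mk {H : Type*} [Group H] (k : H) :
    classInv (ConjClasses.mk k) = ConjClasses.mk k⁻¹ := rfl

end classes

end Cfsg.Agent.Lib.Helper10
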