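import Mathlib
import Cfsg.Prelude.Def_Local
import Cfsg.Agent.Lib.Helper23.SylowNumber
import Cfsg.Agent.Lib.Helper23.PSolv
import Cfsg.Agent.H9.Cores
import Cfsg.Agent.H20.PSolvHall
import Cfsg.Agent.S0024
import Cfsg.Agent.S0025

/-!
# A Sylow `p`-subgroup normalizing a Sylow `q`-subgroup
-/

set_option autoImplicit false

namespace Cfsg.Agent.Lib.Helper10

open Subgroup
open scoped Pointwise

universe u

variable {G : Type u} [Group G] [Finite G]

/-- a subgroup of index prime to `p` contains a Sylow `p`-subgroup. -/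
theorem exists_sylow_le_of_not_dvd_index (p : ℕ) [Fact p.Prime] (C : Subgroup G)
    (h : ¬ p ∣ C.index) : ∃ P : Sylow p G, (P : Subgroup G) ≤ C := by
  obtain ⟨S⟩ : Nonempty (Sylow p C) := inferInstance
  have h1 : IsPGroup p ((S : Subgroup C).map C.subtype) := S.2.map _
  have h2 : ¬ p ∣ ((S : Subgroup C).map C.subtype).index := by
    rw [Subgroup.index_map_subtype]
    intro hd
    rcases (Nat.Prime.dvd_mul (Fact.out : p.Prime)).1 hd with hd | hd
    · exact S.not_dvd_index hd
    · exact h hd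
  refine ⟨h1.toSylow h2, ?_⟩
  rw [IsPGroup.toSylow_coe]
  exact Subgroup.map_subtype_le _

/-- if the number of Sylow `q`-subgroups is prime to `p`, each Sylow `p`-subgroup normalizes
a Sylow `q`-subgroup. -/
theorem exists_normalized_sylow (p q : ℕ) [Fact p.Prime] [Fact q.Prime]
    (h : ¬ p ∣ Nat.card (Sylow q G)) (P : Sylow p G) :
    ∃ Q : Sylow q G, (P : Subgroup G) ≤ normalizer ((Q : Subgroup G) : Set G) := by
  obtain ⟨Q, hQ⟩ := IsPGroup.nonempty_fixed_point_of_prime_not_dvd_card (p := p)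
    (G := ↥(P : Subgroup G)) P.isPGroup' (Sylow q G) h
  refine ⟨Q, fun y hy => ?_⟩
  have h1 := hQ ⟨y, hy⟩
  have h2 : y • Q = Q := h1
  exact Sylow.smul_eq_iff_mem_normalizer.1 h2

/-- Sylow numbers when the quotient is a `q'`-group. -/
theorem card_sylow_dvd_card_of_not_dvd_index (q : ℕ) [Fact q.Prime] (K : Subgroup G) [K.Normal]
    (h : ¬ q ∣ K.index) : Nat.card (Sylow q G) ∣ Nat.card K := by
  obtain ⟨Q⟩ : Nonempty (Sylow q G) := inferInstance
  rw [Helper23.card_sylow_eq_card_quotient_mul_relIndex Q K]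
  have h1 : Nat.card (Sylow q (G ⧸ K)) = 1 := by
    have hsub : Subsingleton (Sylow q (G ⧸ K)) := by
      refine ⟨fun A B => ?_⟩
      have hb : ∀ A : Sylow q (G ⧸ K), (A : Subgroup (G ⧸ K)) = ⊥ := by
        intro A
        rw [← Subgroup.card_eq_one]
        obtain ⟨n, hn⟩ := IsPGroup.iff_card.1 A.2
        rcases Nat.eq_zero_or_pos n with h0 | h0
        · rw [hn, h0, pow_zero]
        · exfalso
          apply h
          have h3 : q ∣ Nat.card (A : Subgroup (G ⧸ K)) := by
            rw [hn]; exact dvd_pow_self q h0.ne'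
          exact h3.trans (Subgroup.card_subgroup_dvd_card _)
      exact Sylow.ext ((hb A).trans (hb B).symm)
    exact Nat.card_unique
  rw [h1, one_mul]
  exact Subgroup.relIndex_dvd_card _ _

theorem exists_normalized_sylow_of_not_dvd_index (p q : ℕ) [Fact p.Prime] [Fact q.Prime]
    (K : Subgroup G) [K.Normal] (hK : (Nat.card K).Coprime p) (h : ¬ q ∣ K.index) (P : Sylow p G) :
    ∃ Q : Sylow q G, (P : Subgroup G) ≤ normalizer ((Q : Subgroup G) : Set G) := by
  apply exists_normalized_sylow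
  intro hd
  have h1 := hd.trans (card_sylow_dvd_card_of_not_dvd_index q K h)
  have h2 := Nat.Coprime.eq_one_of_dvd hK.symm h1
  exact (Fact.out : p.Prime).one_lt.ne' h2

/-- In a `p`-solvable group with `O_{p'} = 1`, a `p'`-element centralizing `O_p(G)` is trivial. -/
theorem eq_one_of_centralizes_pCore (p : ℕ) [Fact p.Prime] (hs : Cfsg.IsPSolvable p G)
    (hcore : Cfsg.pPrimeCore p G = ⊥) (y : G) (hy : y ∈ centralizer (Cfsg.pCore p G : Set G))
    (ho : (orderOf y).Coprime p) : y = 1 := by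
  have h1 := Helper23.centralizer_pCore_le_of_isPSolvable p hs hcore hy
  have h2 : IsPGroup p (Cfsg.pCore p G) := Cfsg.H9.pCore_isPGroup p
  obtain ⟨k, hk⟩ := h2 ⟨y, h1⟩
  have h3 : y ^ p ^ k = 1 := by
    have := congrArg Subtype.val hk
    simpa using this
  have h4 : orderOf y ∣ p ^ k := orderOf_dvd_of_pow_eq_one h3
  have h5 : orderOf y = 1 := Nat.Coprime.eq_one_of_dvd (ho.pow_right k) h4
  exact orderOf_eq_one_iff.1 h5

theorem not_dvd_card_of_normalizes (p q : ℕ) [Fact p.Prime] [Fact q.Prime] (hpq : p ≠ q)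
    (hs : Cfsg.IsPSolvable p G) (hcore : Cfsg.pPrimeCore p G = ⊥) (P : Sylow p G) (Q : Sylow q G)
    (h : (P : Subgroup G) ≤ normalizer ((Q : Subgroup G) : Set G)) : ¬ q ∣ Nat.card G := by
  intro hq
  apply Sylow.ne_bot_of_dvd_card Q hq
  rw [Subgroup.eq_bot_iff_forall]
  intro y hy
  have hRp : IsPGroup p (Cfsg.pCore p G) := Cfsg.H9.pCore_isPGroup p
  have hRP : Cfsg.pCore p G ≤ (P : Subgroup G) := hRp.le_sylow_of_normal P
  have hdisj : Disjoint (Cfsg.pCore p G) (Q : Subgroup G) :=
    IsPGroup.disjoint_of_ne p q hpq _ _ hRp Q.2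
  apply eq_one_of_centralizes_pCore p hs hcore y
  · rw [Subgroup.mem_centralizer_iff]
    intro r hr
    have hr' : r ∈ Cfsg.pCore p G := hr
    have h1 : r * y * r⁻¹ ∈ (Q : Subgroup G) :=
      (Subgroup.mem_normalizer_iff.1 (h (hRP hr')) y).1 hy
    have h2 : r * y * r⁻¹ * y⁻¹ ∈ (Q : Subgroup G) := mul_mem h1 (inv_mem hy)
    have h3 : r * y * r⁻¹ * y⁻¹ ∈ Cfsg.pCore p G := by
      have h4 : y * r⁻¹ * y⁻¹ ∈ Cfsg.pCore p G :=
        (inferInstance : (Cfsg.pCore p G).Normal).conj_mem _ (inv_mem hr') y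
      have := mul_mem hr' h4
      simpa [mul_assoc] using this
    have h5 : r * y * r⁻¹ * y⁻¹ = 1 := by
      have := (Subgroup.disjoint_def.1 hdisj) h3 h2
      exact this
    calc r * y = (r * y * r⁻¹ * y⁻¹) * (y * r) := by group
      _ = y * r := by rw [h5, one_mul]
  · obtain ⟨k, hk⟩ := (IsPGroup.iff_orderOf.1 Q.2) ⟨y, hy⟩
    rw [Subgroup.orderOf_mk] at hk
    rw [hk]
    apply Nat.Coprime.pow_left
    exact (Nat.coprime_primes Fact.out Fact.out).2 hpq.symm

/-- `S4602`. -/
theorem exists_normalizes_iff (p q : ℕ) [Fact p.Prime] [Fact q.Prime] (hpq : p ≠ q)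
    (hsolv : Cfsg.IsPSolvable p G) :
    (∃ (P : Sylow p G) (Q : Sylow q G),
      (P : Subgroup G) ≤ Subgroup.normalizer ((Q : Subgroup G) : Set G)) ↔
      ¬ q ∣ (Cfsg.pPrimeCore p G).index := by
  constructor
  · rintro ⟨P, Q, h⟩
    have hsurj := QuotientGroup.mk'_surjective (Cfsg.pPrimeCore p G)
    have := not_dvd_card_of_normalizes p q hpq
      (Cfsg.Agent.H20.isPSolvable_quotient Fact.out hsolv (Cfsg.pPrimeCore p G))
      (Cfsg.H9.pPrimeCore_quotient p) (P.mapSurjective hsurj) (Q.mapSurjective hsurj) (by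
        rw [Sylow.coe_mapSurjective, Sylow.coe_mapSurjective]
        exact (Subgroup.map_mono h).trans (Subgroup.le_normalizer_map _))
    exact this
  · intro h
    obtain ⟨P⟩ : Nonempty (Sylow p G) := inferInstance
    obtain ⟨Q, hQ⟩ := exists_normalized_sylow_of_not_dvd_index p q (Cfsg.pPrimeCore p G)
      (Cfsg.H9.pPrimeCore_coprime p) h P
    exact ⟨P, Q, hQ⟩

/-- `q`-elements lift along surjections. -/
theorem exists_lift_prime_pow_order {H : Type*} [Group H] (q : ℕ) [Fact q.Prime] (f : G →* H)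
    (hf : Function.Surjective f) (z : H) (hz : ∃ k : ℕ, orderOf z = q ^ k) :
    ∃ y : G, f y = z ∧ ∃ k : ℕ, orderOf y = q ^ k := by
  obtain ⟨y₀, rfl⟩ := hf z
  obtain ⟨k, hk⟩ := hz
  obtain ⟨a, m, hm, hn⟩ := Nat.exists_eq_pow_mul_and_not_dvd (orderOf_pos y₀).ne' q
    (Fact.out : q.Prime).one_lt.ne'
  have hcop : m.Coprime (orderOf (f y₀)) := by
    rw [hk]
    apply Nat.Coprime.pow_right
    exact ((Nat.Prime.coprime_iff_not_dvd Fact.out).2 hm).symm
  obtain ⟨j, hj⟩ := exists_pow_eq_self_of_coprime hcop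
  refine ⟨(y₀ ^ m) ^ j, by rw [map_pow, map_pow, hj], ?_⟩
  have h1 : ((y₀ ^ m) ^ j) ^ (q ^ a) = 1 := by
    rw [← pow_mul, ← pow_mul]
    have : m * (j * q ^ a) = orderOf y₀ * j := by rw [hn]; ring
    rw [this, pow_mul, pow_orderOf_eq_one, one_pow]
  obtain ⟨i, -, hi⟩ := (Nat.dvd_prime_pow Fact.out).1 (orderOf_dvd_of_pow_eq_one h1)
  exact ⟨i, hi⟩

/-- no `q`-element has class size divisible by `p`. -/
def ClassHyp (p q : ℕ) (G : Type*) [Group G] : Prop :=
  ∀ y : G, (∃ k : ℕ, orderOf y = q ^ k) → ¬ p ∣ (centralizer ({y} : Set G)).index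

theorem classHyp_quotient {p q : ℕ} [Fact q.Prime] (K : Subgroup G) [K.Normal]
    (h : ClassHyp p q G) : ClassHyp p q (G ⧸ K) := by
  intro z hz hd
  obtain ⟨y, rfl, hy⟩ := exists_lift_prime_pow_order q (QuotientGroup.mk' K)
    (QuotientGroup.mk'_surjective K) z hz
  apply h y hy
  have h1 : (centralizer ({y} : Set G)).map (QuotientGroup.mk' K)
      ≤ centralizer ({QuotientGroup.mk' K y} : Set (G ⧸ K)) := by
    rintro _ ⟨c, hc, rfl⟩
    rw [Subgroup.mem_centralizer_singleton_iff]
    have hc' := Subgroup.mem_centralizer_singleton_iff.1 hc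
    rw [← map_mul, ← map_mul, hc']
  exact (hd.trans (Subgroup.index_dvd_of_le h1)).trans
    (Subgroup.index_map_dvd _ (QuotientGroup.mk'_surjective K))

theorem not_dvd_relIndex_normalizer (p q : ℕ) [Fact p.Prime] [Fact q.Prime]
    (h : ClassHyp p q G) (K : Subgroup G) [K.Normal] (hK : (Nat.card K).Coprime q)
    (Q : Sylow q G) : ¬ p ∣ (normalizer ((Q : Subgroup G) : Set G)).relIndex K := by
  have hNK : ∀ A : Subgroup G, A ≤ normalizer (K : Set G) := by
    intro A
    rw [Subgroup.normalizer_eq_top]; exact le_top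
  have hcopQ : (Nat.card (Q : Subgroup G)).Coprime (Nat.card K) := by
    obtain ⟨n, hn⟩ := IsPGroup.iff_card.1 Q.2
    rw [hn]
    exact (hK.symm).pow_left n
  have hsolQ : Group.IsSolvable (Q : Subgroup G) := by
    have := Q.2.isNilpotent
    infer_instance
  obtain ⟨S₀, -, hS₀⟩ := Cfsg.Agent.S0025.result (Q : Subgroup G) K (hNK _) hcopQ (Or.inl hsolQ) p ⊥
    bot_le IsPGroup.of_bot (by rw [Subgroup.normalizer_eq_top]; exact le_top)
  have key : ∀ x ∈ (Q : Subgroup G),
      x ∈ centralizer (((S₀ : Subgroup K).map K.subtype : Subgroup G) : Set G) := by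
    intro x hx
    obtain ⟨k, hk⟩ := (IsPGroup.iff_orderOf.1 Q.2) ⟨x, hx⟩
    rw [Subgroup.orderOf_mk] at hk
    obtain ⟨P₁, hP₁⟩ := exists_sylow_le_of_not_dvd_index p _ (h x ⟨k, hk⟩)
    have h1 : IsPGroup p ((P₁ : Subgroup G).subgroupOf K) :=
      P₁.2.comap_of_injective K.subtype K.subtype_injective
    have h2 : ¬ p ∣ ((P₁ : Subgroup G).subgroupOf K).index := by
      intro h
      apply P₁.not_dvd_index
      refine h.trans ?_
      change (P₁ : Subgroup G).relIndex K ∣ _
      rw [← Helper23.relIndex_sup_normal_eq]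
      exact relIndex_dvd_index_of_le le_sup_left
    have hxc : ∀ s ∈ (P₁ : Subgroup G), s * x = x * s := by
      intro s hs
      exact Subgroup.mem_centralizer_singleton_iff.1 (hP₁ hs)
    have hzQ : zpowers x ≤ (Q : Subgroup G) := (Subgroup.zpowers_le).2 hx
    have hcop' : (Nat.card (zpowers x)).Coprime (Nat.card K) :=
      Nat.Coprime.coprime_dvd_left (Subgroup.card_dvd_of_le hzQ) hcopQ
    have hsol' : Group.IsSolvable (zpowers x) := inferInstance
    have hn1 : zpowers x ≤ normalizer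
        ((((h1.toSylow h2 : Sylow p K) : Subgroup K).map K.subtype : Subgroup G) : Set G) := by
      rw [IsPGroup.toSylow_coe, Subgroup.subgroupOf_map_subtype]
      refine le_trans ?_ (Subgroup.centralizer_le_normalizer _)
      rw [Subgroup.zpowers_le, Subgroup.mem_centralizer_iff]
      intro s hs
      exact hxc s hs.1
    obtain ⟨c, hc, hcS⟩ := Cfsg.Agent.S0024.result (zpowers x) K (hNK _) hcop' (Or.inl hsol') p
      (h1.toSylow h2) S₀ hn1 (hzQ.trans hS₀)
    have hcx : (c : G) * x = x * (c : G) := by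
      have := (Subgroup.mem_centralizer_iff.1 hc) x (Subgroup.mem_zpowers x)
      exact this.symm
    rw [Subgroup.mem_centralizer_iff]
    rintro _ ⟨t, ht, rfl⟩
    rw [← hcS] at ht
    have ht' : t ∈ MulAut.conj c • ((h1.toSylow h2 : Sylow p K) : Subgroup K) := ht
    rw [IsPGroup.toSylow_coe] at ht'
    obtain ⟨s, hs, rfl⟩ := ht'
    have hs' : (s : G) ∈ (P₁ : Subgroup G) := hs
    have hsx := hxc _ hs'
    simp only [MulDistribMulAction.toMonoidEnd_apply, MulDistribMulAction.toMonoidHom_apply,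
      MulAut.smul_def, MulAut.conj_apply, Subgroup.subtype_apply, Subgroup.coe_mul,
      InvMemClass.coe_inv]
    have hcx' : (c : G)⁻¹ * x = x * (c : G)⁻¹ := by
      calc (c : G)⁻¹ * x = (c : G)⁻¹ * (x * (c : G)) * (c : G)⁻¹ := by group
        _ = (c : G)⁻¹ * ((c : G) * x) * (c : G)⁻¹ := by rw [hcx]
        _ = x * (c : G)⁻¹ := by group
    calc (c : G) * (s : G) * (c : G)⁻¹ * x = (c : G) * (s : G) * ((c : G)⁻¹ * x) := by group
      _ = (c : G) * ((s : G) * x) * (c : G)⁻¹ := by rw [hcx']; group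
      _ = ((c : G) * x) * (s : G) * (c : G)⁻¹ := by rw [hsx]; group
      _ = x * ((c : G) * (s : G) * (c : G)⁻¹) := by rw [hcx]; group
  have hT : (S₀ : Subgroup K).map K.subtype ≤ normalizer ((Q : Subgroup G) : Set G) := by
    refine le_trans ?_ (Subgroup.centralizer_le_normalizer _)
    intro t ht
    rw [Subgroup.mem_centralizer_iff]
    intro x hx
    exact ((Subgroup.mem_centralizer_iff.1 (key x hx)) t ht).symm
  intro hd
  have h3 := hd.trans (Subgroup.relIndex_dvd_of_le_left K hT)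
  have h4 : ((S₀ : Subgroup K).map K.subtype).relIndex K = (S₀ : Subgroup K).index := by
    unfold Subgroup.relIndex Subgroup.subgroupOf
    rw [Subgroup.comap_map_eq_self_of_injective K.subtype_injective]
  rw [h4] at h3
  exact S₀.not_dvd_index h3

theorem not_dvd_card_sylow_of_classHyp (p q : ℕ) [Fact p.Prime] [Fact q.Prime] :
    ∀ (n : ℕ) (G : Type u) [Group G] [Finite G], Nat.card G = n → Cfsg.IsPSolvable q G →
      ClassHyp p q G → ¬ p ∣ Nat.card (Sylow q G) := by
  intro n
  induction n using Nat.strong_induction_on with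
  | _ n ih =>
    intro G _ _ hn hs h
    have hlt : ∀ K : Subgroup G, K ≠ ⊥ → Nat.card (G ⧸ K) < n := by
      intro K hK
      rw [← hn, Subgroup.card_eq_card_quotient_mul_card_subgroup K]
      have h1 := (Subgroup.one_lt_card_iff_ne_bot K).2 hK
      have h2 : 0 < Nat.card (G ⧸ K) := Nat.card_pos
      nlinarith
    by_cases hK : Cfsg.pPrimeCore q G = ⊥
    · by_cases hR : Cfsg.pCore q G = ⊥
      · have h1 := Helper23.centralizer_pCore_le_of_isPSolvable q hs hK
        rw [hR] at h1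
        have h2 : ∀ g : G, g = 1 := by
          intro g
          have : g ∈ centralizer (((⊥ : Subgroup G) : Subgroup G) : Set G) := by
            rw [Subgroup.mem_centralizer_iff]
            intro x hx
            have hx' : x = 1 := hx
            rw [hx']; simp
          exact h1 this
        have hsub : Subsingleton (Sylow q G) := by
          refine ⟨fun A B => Sylow.ext (Subgroup.ext fun g => ?_)⟩
          rw [h2 g]
          simp [one_mem]
        rw [Nat.card_unique (α := Sylow q G)]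
        exact (Fact.out : p.Prime).one_lt.ne' ∘ Nat.dvd_one.1
      · rw [← Helper23.card_sylow_quotient_pgroup (Cfsg.pCore q G) (Cfsg.H9.pCore_isPGroup q)]
        exact ih _ (hlt _ hR) (G ⧸ Cfsg.pCore q G) rfl
          (Cfsg.Agent.H20.isPSolvable_quotient Fact.out hs _) (classHyp_quotient _ h)
    · obtain ⟨Q⟩ : Nonempty (Sylow q G) := inferInstance
      rw [Helper23.card_sylow_eq_card_quotient_mul_relIndex Q (Cfsg.pPrimeCore q G)]
      intro hd
      rcases (Nat.Prime.dvd_mul (Fact.out : p.Prime)).1 hd with hd | hd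
      · exact ih _ (hlt _ hK) (G ⧸ Cfsg.pPrimeCore q G) rfl
          (Cfsg.Agent.H20.isPSolvable_quotient Fact.out hs _) (classHyp_quotient _ h) hd
      · exact not_dvd_relIndex_normalizer p q h _ (Cfsg.H9.pPrimeCore_coprime q) Q hd

/-- `S4601`. -/
theorem exists_normalizes_of_classHyp (p q : ℕ) [Fact p.Prime] [Fact q.Prime]
    (hsolv : Cfsg.IsPSolvable p G ∨ Cfsg.IsPSolvable q G) (h : ClassHyp p q G) :
    ∃ (P : Sylow p G) (Q : Sylow q G),
      (P : Subgroup G) ≤ Subgroup.normalizer ((Q : Subgroup G) : Set G) := by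
  by_cases hpq : p = q
  · subst hpq
    obtain ⟨P⟩ : Nonempty (Sylow p G) := inferInstance
    exact ⟨P, P, le_normalizer⟩
  rcases hsolv with hs | hs
  · rw [exists_normalizes_iff p q hpq hs]
    intro hq
    have hq' : q ∣ Nat.card (G ⧸ Cfsg.pPrimeCore p G) := hq
    obtain ⟨z, hz⟩ := exists_prime_orderOf_dvd_card' q hq'
    have hyp := classHyp_quotient (Cfsg.pPrimeCore p G) h z ⟨1, by rw [hz, pow_one]⟩
    obtain ⟨P₁, hP₁⟩ := exists_sylow_le_of_not_dvd_index p _ hyp
    have hz1 : z = 1 := by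
      apply eq_one_of_centralizes_pCore p
        (Cfsg.Agent.H20.isPSolvable_quotient Fact.out hs (Cfsg.pPrimeCore p G))
        (Cfsg.H9.pPrimeCore_quotient p) z
      · rw [Subgroup.mem_centralizer_iff]
        intro r hr
        have h1 : r ∈ (P₁ : Subgroup _) :=
          (IsPGroup.le_sylow_of_normal (Cfsg.H9.pCore_isPGroup p) P₁) hr
        exact (Subgroup.mem_centralizer_singleton_iff.1 (hP₁ h1))
      · rw [hz]
        exact (Nat.coprime_primes Fact.out Fact.out).2 (Ne.symm hpq)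
    rw [hz1, orderOf_one] at hz
    exact (Fact.out : q.Prime).one_lt.ne hz
  · obtain ⟨P⟩ : Nonempty (Sylow p G) := inferInstance
    obtain ⟨Q, hQ⟩ := exists_normalized_sylow p q
      (not_dvd_card_sylow_of_classHyp p q _ G rfl hs h) P
    exact ⟨P, Q, hQ⟩

end Cfsg.Agent.Lib.Helper10
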