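import Mathlib
import Cfsg.Prelude.Def_Local
import Cfsg.Agent.H9.Cores
import Cfsg.Agent.Lib.Helper16.PIrr

/-!
# A normal `p`-subgroup `H`, its centralizer `C`, and the preimage of `O_p(Y/C)`
-/

set_option autoImplicit false

namespace Cfsg.Agent.Lib.Helper10.SylPre

universe u

variable {Y : Type u} [Group Y] [Finite Y] {p : ℕ} [Fact p.Prime]

theorem key_star (H C : Subgroup Y) [hHn : H.Normal] [hCn : C.Normal]
    (hcomm : ∀ c ∈ C, ∀ h ∈ H, c * h = h * c)
    (T : Sylow p Y) (hT : (T : Subgroup Y) ⊓ C ≤ H) : C ≤ H ⊔ Cfsg.pPrimeCore p Y := by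
  have hp : p.Prime := Fact.out
  obtain ⟨Q⟩ : Nonempty (Sylow p ↥C) := inferInstance
  have hQH : ∀ q : ↥C, q ∈ (Q : Subgroup ↥C) → (q : Y) ∈ H := by
    intro q hq
    have hQ1 : IsPGroup p ((Q : Subgroup ↥C).map C.subtype) := Q.2.map _
    obtain ⟨T', hT'⟩ := hQ1.exists_le_sylow
    obtain ⟨y, hy⟩ := MulAction.exists_smul_eq Y T' T
    have h1 : y * (q : Y) * y⁻¹ ∈ (T : Subgroup Y) := by
      rw [← hy, Sylow.coe_subgroup_smul]
      exact Subgroup.smul_mem_pointwise_smul _ (MulAut.conj y) _ (hT' ⟨q, hq, rfl⟩)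
    have h2 : y * (q : Y) * y⁻¹ ∈ H := hT ⟨h1, hCn.conj_mem _ q.2 y⟩
    have h3 := hHn.conj_mem _ h2 y⁻¹
    convert h3 using 1
    group
  have hQc : Subgroup.normalizer ((Q : Subgroup ↥C) : Set ↥C) ≤
      Subgroup.centralizer ((Q : Subgroup ↥C) : Set ↥C) := by
    intro w _
    rw [Subgroup.mem_centralizer_iff]
    intro q hq
    exact Subtype.ext (hcomm w w.2 q (hQH q hq)).symm
  have hcompl := MonoidHom.ker_transferSylow_isComplement' Q hQc
  set D := (MonoidHom.transferSylow Q hQc).ker with hD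
  have hDc : (Nat.card D).Coprime p := by
    rw [← hcompl.index_eq_card]
    exact ((Nat.Prime.coprime_iff_not_dvd hp).2 Q.not_dvd_index).symm
  have hDle : D ≤ Cfsg.pPrimeCore p ↥C := Cfsg.H9.le_pPrimeCore p (MonoidHom.normal_ker _) hDc
  have hmap : (Cfsg.pPrimeCore p ↥C).map C.subtype = Cfsg.pPrimeCore p Y ⊓ C :=
    Cfsg.H9.map_pPrimeCore_subnormal p hCn.isSubnormal
  intro c hc
  have h1 : (⟨c, hc⟩ : ↥C) ∈ D ⊔ (Q : Subgroup ↥C) := by
    rw [hcompl.sup_eq_top]; trivial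
  rw [Subgroup.mem_sup_of_normal_left] at h1
  obtain ⟨d, hd, q, hq, hdq⟩ := h1
  have h2 : c = (d : Y) * (q : Y) := by
    have := congrArg Subtype.val hdq
    simpa using this.symm
  have h3 : (d : Y) ∈ Cfsg.pPrimeCore p Y := by
    have : (d : Y) ∈ (Cfsg.pPrimeCore p ↥C).map C.subtype := ⟨d, hDle hd, rfl⟩
    rw [hmap] at this
    exact this.1
  rw [h2]
  exact mul_mem (Subgroup.mem_sup_right h3) (Subgroup.mem_sup_left (hQH q hq))

/-- a `p`-subgroup between `H` and `N` is `H` when `|N:H|` is prime to `p`. -/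
theorem le_of_not_dvd_relIndex {H N R : Subgroup Y} (hHN : ¬ p ∣ H.relIndex N)
    (hR : IsPGroup p R) (hHR : H ≤ R) (hRN : R ≤ N) : R ≤ H := by
  have hp : p.Prime := Fact.out
  rw [← Subgroup.relIndex_eq_one]
  obtain ⟨n, hn⟩ := hR.exists_card_eq
  have h1 : H.relIndex R ∣ p ^ n := by rw [← hn]; exact Subgroup.relIndex_dvd_card H R
  obtain ⟨m, _, hm⟩ := (Nat.dvd_prime_pow hp).1 h1
  have h2 : H.relIndex R ∣ H.relIndex N := ⟨_, (Subgroup.relIndex_mul_relIndex H R N hHR hRN).symm⟩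
  rcases Nat.eq_zero_or_pos m with rfl | hm0
  · simpa using hm
  · exfalso
    apply hHN
    refine dvd_trans ?_ h2
    rw [hm]
    exact dvd_pow_self p hm0.ne'

theorem abstract_iff (H C : Subgroup Y) [hHn : H.Normal] [hCn : C.Normal] (hH : IsPGroup p H)
    (hcomm : ∀ c ∈ C, ∀ h ∈ H, c * h = h * c)
    (hcent : ∀ c : Y, (∀ h ∈ H, c * h = h * c) → c ∈ C)
    (T : Sylow p Y) :
    (H ≤ (Cfsg.pCore p (Y ⧸ C)).comap (QuotientGroup.mk' C) ∧
      ¬ p ∣ H.relIndex ((Cfsg.pCore p (Y ⧸ C)).comap (QuotientGroup.mk' C))) ↔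
    ((T : Subgroup Y) ⊓ C ≤ H ∧ Cfsg.pPrimePCore p Y = H ⊔ C) := by
  have hp : p.Prime := Fact.out
  set N := (Cfsg.pCore p (Y ⧸ C)).comap (QuotientGroup.mk' C) with hN
  set K := Cfsg.pPrimeCore p Y with hK
  have hKn : K.Normal := inferInstance
  have hKc : (Nat.card K).Coprime p := Cfsg.H9.pPrimeCore_coprime p
  set L := Cfsg.pPrimePCore p Y with hL
  have hLdef : L = (Cfsg.pCore p (Y ⧸ K)).comap (QuotientGroup.mk' K) := rfl
  have hHK : H ⊓ K = ⊥ := by
    apply (Subgroup.disjoint_of_coprime_natCard _).eq_bot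
    obtain ⟨n, hn⟩ := hH.exists_card_eq
    rw [hn]
    exact (Nat.Coprime.pow_right n hKc).symm
  -- (a) K ≤ C
  have hKC : K ≤ C := by
    intro k hk
    apply hcent
    intro h hh
    have h3 : k * h * k⁻¹ * h⁻¹ ∈ H ⊓ K := by
      refine ⟨H.mul_mem (hHn.conj_mem h hh k) (H.inv_mem hh), ?_⟩
      have : k * h * k⁻¹ * h⁻¹ = k * (h * k⁻¹ * h⁻¹) := by group
      rw [this]
      exact K.mul_mem hk (hKn.conj_mem _ (K.inv_mem hk) h)
    rw [hHK, Subgroup.mem_bot] at h3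
    calc k * h = (k * h * k⁻¹ * h⁻¹) * (h * k) := by group
      _ = h * k := by rw [h3, one_mul]
  -- (b)
  have hHN : H ≤ N := by
    rw [hN, ← Subgroup.map_le_iff_le_comap]
    exact Cfsg.H9.le_pCore p (hHn.map _ (QuotientGroup.mk'_surjective C)) (hH.map _)
  have hCN : C ≤ N := by
    intro c hc
    show QuotientGroup.mk' C c ∈ Cfsg.pCore p (Y ⧸ C)
    have : QuotientGroup.mk' C c = 1 := by
      rw [← MonoidHom.mem_ker, QuotientGroup.ker_mk']; exact hc
    rw [this]; exact one_mem _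
  have hHL : H ≤ L := by
    rw [hLdef, ← Subgroup.map_le_iff_le_comap]
    exact Cfsg.H9.le_pCore p (hHn.map _ (QuotientGroup.mk'_surjective K)) (hH.map _)
  have hKL : K ≤ L := by
    intro c hc
    show QuotientGroup.mk' K c ∈ Cfsg.pCore p (Y ⧸ K)
    have : QuotientGroup.mk' K c = 1 := by
      rw [← MonoidHom.mem_ker, QuotientGroup.ker_mk']; exact hc
    rw [this]; exact one_mem _
  have hNn : N.Normal := Subgroup.Normal.comap inferInstance _
  have hLn : L.Normal := by rw [hLdef]; exact Subgroup.Normal.comap inferInstance _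
  -- (c), (d)
  have hNp : ∀ x ∈ N, ∃ k : ℕ, x ^ p ^ k ∈ C := by
    intro x hx
    have hx' : QuotientGroup.mk' C x ∈ Cfsg.pCore p (Y ⧸ C) := hx
    obtain ⟨k, hk⟩ := (Cfsg.H9.pCore_isPGroup p (G := Y ⧸ C)) ⟨_, hx'⟩
    refine ⟨k, ?_⟩
    rw [← QuotientGroup.ker_mk' C, MonoidHom.mem_ker, map_pow]
    simpa using congrArg Subtype.val hk
  have hLp : ∀ x ∈ L, ∃ k : ℕ, x ^ p ^ k ∈ K := by
    intro x hx
    have hx' : QuotientGroup.mk' K x ∈ Cfsg.pCore p (Y ⧸ K) := hx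
    obtain ⟨k, hk⟩ := (Cfsg.H9.pCore_isPGroup p (G := Y ⧸ K)) ⟨_, hx'⟩
    refine ⟨k, ?_⟩
    rw [← QuotientGroup.ker_mk' K, MonoidHom.mem_ker, map_pow]
    simpa using congrArg Subtype.val hk
  constructor
  · rintro ⟨_, hnd⟩
    have hTC : (T : Subgroup Y) ⊓ C ≤ H := by
      have hR : IsPGroup p ↥(((T : Subgroup Y) ⊓ C) ⊔ H) :=
        IsPGroup.to_sup_of_normal_right (T.2.to_le inf_le_left) hH
      exact le_sup_left.trans (le_of_not_dvd_relIndex hnd hR le_sup_right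
        (sup_le (inf_le_right.trans hCN) hHN))
    refine ⟨hTC, le_antisymm ?_ ?_⟩
    · -- L ≤ N ≤ H ⊔ C
      have hLN : L ≤ N := by
        rw [hN, ← Subgroup.map_le_iff_le_comap]
        apply Cfsg.H9.le_pCore p (hLn.map _ (QuotientGroup.mk'_surjective C))
        rintro ⟨_, x, hx, rfl⟩
        obtain ⟨k, hk⟩ := hLp x hx
        refine ⟨k, Subtype.ext ?_⟩
        show (QuotientGroup.mk' C x) ^ p ^ k = 1
        rw [← map_pow, ← MonoidHom.mem_ker, QuotientGroup.ker_mk']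
        exact hKC hk
      refine hLN.trans ?_
      intro x hx
      apply Cfsg.Agent.Lib.Helper16.mem_of_parts (p := p)
      · intro n hn
        have hR : IsPGroup p ↥(Subgroup.zpowers (x ^ n) ⊔ H) :=
          IsPGroup.to_sup_of_normal_right hn hH
        have h1 : Subgroup.zpowers (x ^ n) ⊔ H ≤ H := le_of_not_dvd_relIndex hnd hR le_sup_right
          (sup_le (by rw [Subgroup.zpowers_le]; exact N.pow_mem hx n) hHN)
        exact Subgroup.mem_sup_left (h1 (Subgroup.mem_sup_left (Subgroup.mem_zpowers _)))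
      · intro n hn
        obtain ⟨k, hk⟩ := hNp (x ^ n) (N.pow_mem hx n)
        obtain ⟨m, hm⟩ := exists_pow_eq_self_of_coprime (x := x ^ n) (n := p ^ k)
          (Nat.Coprime.pow_left k hn.symm)
        rw [← hm]
        exact Subgroup.mem_sup_right (C.pow_mem hk m)
    · exact sup_le hHL ((key_star H C hcomm T hTC).trans (sup_le hHL hKL))
  · rintro ⟨hTC, hLeq⟩
    refine ⟨hHN, ?_⟩
    have hstar := key_star H C hcomm T hTC
    have hNL : N ≤ L := by
      rw [hLdef, ← Subgroup.map_le_iff_le_comap]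
      apply Cfsg.H9.le_pCore p (hNn.map _ (QuotientGroup.mk'_surjective K))
      rintro ⟨_, x, hx, rfl⟩
      obtain ⟨k, hk⟩ := hNp x hx
      have h1 := hstar hk
      rw [Subgroup.mem_sup_of_normal_right] at h1
      obtain ⟨h, hh, k', hk', hhk⟩ := h1
      obtain ⟨l, hl⟩ := hH ⟨h, hh⟩
      have hl' : h ^ p ^ l = 1 := by simpa using congrArg Subtype.val hl
      refine ⟨k + l, Subtype.ext ?_⟩
      show (QuotientGroup.mk' K x) ^ p ^ (k + l) = 1
      have hk1 : QuotientGroup.mk' K k' = 1 := by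
        rw [← MonoidHom.mem_ker, QuotientGroup.ker_mk']; exact hk'
      rw [pow_add, pow_mul, ← map_pow, ← hhk, map_mul, hk1, mul_one, ← map_pow, hl', map_one]
    have hNle : N ≤ H ⊔ K := hNL.trans (hLeq.le.trans (sup_le le_sup_left hstar))
    have h2 : H.relIndex N ∣ H.relIndex (H ⊔ K) :=
      ⟨_, (Subgroup.relIndex_mul_relIndex H N (H ⊔ K) hHN hNle).symm⟩
    rw [Subgroup.relIndex_sup_left] at h2
    have h3 : H.relIndex N ∣ Nat.card K := h2.trans (Subgroup.relIndex_dvd_card H K)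
    intro hpd
    exact (Nat.Prime.coprime_iff_not_dvd hp).1 hKc.symm (hpd.trans h3)

end Cfsg.Agent.Lib.Helper10.SylPre
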